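import Cfsg.Agent.Nodes.NormalForm
import Cfsg.Agent.Nodes.MuSq

/-!
# Fixed points of automorphisms preserving all root groups (helper244)

`σ` an automorphism of a group with root group data, `σ (X x) ≤ X x` for all roots `x`.
* `fixed_U` : the fixed points of `σ` in `U` are generated by the fixed points in the `X x`;
* `fixed_form` : the normal form of a fixed element has fixed factors;
* `fixed_mu` : the `μ`-element of a fixed element of `X x` is a product of fixed elements of `X x`, `X (-x)`.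
-/

set_option autoImplicit false
set_option linter.unusedSectionVars false

namespace Cfsg.Agent.H244.TD

open CoxeterSystem Cfsg.Agent.ChevalleyStructure.CoxeterGeom Cfsg.Agent.Tits.Roots Cfsg.Agent.Tits.Core
  Cfsg.Agent.Tits.Exchange Cfsg.Agent.Nodes.Reps Cfsg.Agent.Nodes.BNOf Cfsg.Agent.Nodes.StabComb
  Cfsg.Agent.Nodes.Bruhat Cfsg.Agent.Nodes.OppDec Cfsg.Agent.Nodes.LeviDec Cfsg.Agent.Nodes.NormalForm
  Cfsg.Agent.Nodes.Comb Cfsg.Agent.Nodes.Coroot Cfsg.Agent.Tits.RootComb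
open scoped commutatorElement

variable {I W Y : Type*} [Fintype I] [DecidableEq I] [Group W] [Group Y] {M : CoxeterMatrix I}
  {cs : CoxeterSystem M W} {A : I → I → ℤ} {h : IsCartan M A} {p : ℕ} {T : Subgroup Y} {n : I → Y}
  {X : (I → ℤ) → Subgroup Y}

/-- the fixed points -/
def Fx (σ : MulAut Y) : Subgroup Y := MonoidHom.eqLocus σ.toMonoidHom (MonoidHom.id Y)

theorem mem_Fx {σ : MulAut Y} {g : Y} : g ∈ Fx σ ↔ σ g = g := Iff.rfl

/-- `σ` preserves the root groups -/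
def PX (cs : CoxeterSystem M W) (h : IsCartan M A) (X : (I → ℤ) → Subgroup Y) (σ : MulAut Y) : Prop :=
  ∀ x, IsRoot cs h x → ∀ a ∈ X x, σ a ∈ X x

theorem PX.sup {σ : MulAut Y} (hσ : PX cs h X σ) {S : Set (I → ℤ)} (hS : ∀ x ∈ S, IsRoot cs h x) {a : Y}
    (ha : a ∈ RGD.Sup X S) : σ a ∈ RGD.Sup X S := by
  have h1 : RGD.Sup X S ≤ (RGD.Sup X S).comap σ.toMonoidHom :=
    RGD.Sup_le fun x hx a ha => RGD.le_Sup hx (hσ x (hS x hx) a ha)
  exact h1 ha

variable (R : RGD cs h p T n X)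

include R

theorem PX.conj {σ : MulAut Y} (hσ : PX cs h X σ) (i : I) :
    PX cs h X ((MulAut.conj (n i))⁻¹ * σ * MulAut.conj (n i)) := by
  intro x hx a ha
  have h1 := R.conj_mem (rp_simple cs R.nsys i) hx ha
  have h2 := hσ _ (hx.act (cs.simple i)) _ h1
  have h3 := R.conj_mem' (rp_simple cs R.nsys i) (hx.act (cs.simple i)) h2
  rw [rep_inv_apply] at h3
  rw [MulAut.mul_apply, MulAut.mul_apply, MulAut.conj_apply, ← map_inv, MulAut.conj_apply, inv_inv]
  exact h3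

theorem fixed_PW [Finite W] : ∀ (w : W) {σ : MulAut Y}, PX cs h X σ → ∀ {a : Y}, a ∈ RGD.Sup X (PW cs h w) →
    σ a = a → a ∈ RGD.Sup (fun x => X x ⊓ Fx σ) (PW cs h w) := by
  intro w
  induction hn : cs.length (w0 cs) - cs.length w using Nat.strong_induction_on generalizing w with
  | _ N ih =>
  intro σ hσ a ha hc
  by_cases hw0 : w = w0 cs
  · subst hw0
    rw [PW_w0, Sup_empty, Subgroup.mem_bot] at ha
    rw [ha]; exact one_mem _
  -- a simple root in `PW w`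
  obtain ⟨i, hi⟩ : ∃ i, cs.length w < cs.length (w * cs.simple i) := by
    by_contra hcon
    push Not at hcon
    apply hw0
    have h1 : w * w0 cs = 1 := by
      refine eq_one_of_nonneg cs h _ fun j => ?_
      change 0 ≤ rep cs h (w * w0 cs) (sr j)
      rw [rep_mul_apply]
      have h3 : ∀ x, IsRoot cs h x → 0 ≤ x → rep cs h w x ≤ 0 := by
        intro x hx h0
        have h4 : ∀ j, rep cs h w (sr j) ≤ 0 := fun j =>
          nonpos_of_lt cs h w j (lt_of_le_of_ne (hcon j) (cs.length_mul_simple_ne w j))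
        have h5 : x = ∑ k, x k • sr k := by
          funext k
          rw [Finset.sum_apply, Finset.sum_eq_single k (fun b _ hb => by
            rw [Pi.smul_apply, sr_ne hb.symm, smul_zero]) (by simp), Pi.smul_apply, sr_self, smul_eq_mul,
            mul_one]
        rw [h5, map_sum]
        refine Finset.sum_nonpos fun k _ => ?_
        rw [map_smul]
        exact smul_nonpos_of_nonneg_of_nonpos (h0 k) (h4 k)
      have h6 := h3 (-rep cs h (w0 cs) (sr j)) ((isRoot_sr cs h j).act _).neg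
        (neg_nonneg.2 (rep_w0_nonpos (isRoot_sr cs h j) (sr_nonneg j)))
      rw [map_neg] at h6
      exact neg_nonpos.1 h6
    have h2 : w = (w0 cs)⁻¹ := eq_inv_of_mul_eq_one_left h1
    rw [h2, w0_inv]
  have hpos : 0 ≤ rep cs h w (sr i) := (lt_iff' cs h w i).1 hi
  obtain ⟨r, hr, u, hu, rfl⟩ := exists_mul_PW R hpos ha
  -- both factors are fixed
  obtain ⟨hrc, huc⟩ : σ r = r ∧ σ u = u := by
    have h1 : σ r * σ u = r * u := by rw [← map_mul]; exact hc
    have h2 : σ r ∈ RGD.Sup X (PW cs h w \ {sr i}) := hσ.sup (fun x hx => hx.1.1) hr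
    have h3 : σ u ∈ X (sr i) := hσ _ (isRoot_sr cs h i) _ hu
    have h4 : r⁻¹ * σ r = u * (σ u)⁻¹ := by
      rw [eq_mul_inv_iff_mul_eq, mul_assoc, h1]; group
    have hmono : RGD.Sup X (PW cs h w \ {sr i}) ≤ RGD.Sup X (RGD.PosNe cs h i) :=
      RGD.Sup_mono fun x hx => ⟨hx.1.1, hx.1.2.1, hx.2⟩
    have h5 : u * (σ u)⁻¹ = 1 := by
      refine eq_one_of_mem_PosNe R (mul_mem hu (inv_mem h3)) ?_
      rw [← h4]
      exact hmono (mul_mem (inv_mem hr) h2)
    rw [h5] at h4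
    exact ⟨(inv_mul_eq_one.1 h4).symm, (mul_inv_eq_one.1 h5).symm⟩
  refine mul_mem ?_ (RGD.le_Sup (X := fun x => X x ⊓ Fx σ) (S := PW cs h w)
    ⟨isRoot_sr cs h i, sr_nonneg i, hpos⟩ ⟨hu, huc⟩)
  -- the part `r`
  set w' := w * cs.simple i with hw'
  have hlen : cs.length (w0 cs) - cs.length w' < N := by
    have h1 := length_le_w0 cs w'
    omega
  have hws : ∀ x : I → ℤ, rep cs h w' (rep cs h (cs.simple i) x) = rep cs h w x := by
    intro x
    rw [← rep_mul_apply, hw', mul_assoc, simple_mul_simple_self, mul_one]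
  have h1 : (n i)⁻¹ * r * n i ∈ RGD.Sup X (PW cs h w') := by
    refine conj_mem_Sup' R (rp_simple cs R.nsys i) (fun x hx => hx.1.1) (fun x hx => ?_) hr
    rw [inv_simple]
    exact ⟨hx.1.1.act _, hx.1.1.simple_nonneg hx.1.2.1 i hx.2, by rw [hws]; exact hx.1.2.2⟩
  set σ' := (MulAut.conj (n i))⁻¹ * σ * MulAut.conj (n i) with hσ'
  have happ : ∀ g, σ' ((n i)⁻¹ * g * n i) = (n i)⁻¹ * σ g * n i := by
    intro g
    rw [hσ', MulAut.mul_apply, MulAut.mul_apply, MulAut.conj_apply, ← map_inv, MulAut.conj_apply, inv_inv]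
    congr 3
    group
  have h2 : σ' ((n i)⁻¹ * r * n i) = (n i)⁻¹ * r * n i := by rw [happ, hrc]
  have h3 := ih _ hlen w' rfl (PX.conj R hσ i) h1 h2
  have h4 : cj (n i) (RGD.Sup (fun x => X x ⊓ Fx σ') (PW cs h w')) ≤ RGD.Sup (fun x => X x ⊓ Fx σ) (PW cs h w) := by
    rw [RGD.cj_Sup]
    refine iSup_le ?_
    rintro ⟨x, hx⟩
    have hx' : rep cs h (cs.simple i) x ∈ PW cs h w := by
      have hne : x ≠ sr i := by
        rintro rfl
        have h5 := hx.2.2
        rw [hw', rep_mul_apply, rep_simple_sr, map_neg] at h5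
        exact ((isRoot_sr cs h i).act w).not_pos_neg hpos (neg_nonneg.1 h5)
      exact ⟨hx.1.act _, hx.1.simple_nonneg hx.2.1 i hne, by rw [← rep_mul_apply]; exact hx.2.2⟩
    refine le_trans ?_ (RGD.le_Sup (X := fun x => X x ⊓ Fx σ) hx')
    intro y hy
    rw [mem_cj, Subgroup.mem_inf] at hy
    rw [Subgroup.mem_inf]
    refine ⟨?_, ?_⟩
    · have h5 := R.conj_mem (rp_simple cs R.nsys i) hx.1 hy.1
      have e1 : n i * ((n i)⁻¹ * y * n i) * (n i)⁻¹ = y := by group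
      rwa [e1] at h5
    · have h5 : σ' ((n i)⁻¹ * y * n i) = (n i)⁻¹ * y * n i := hy.2
      rw [happ] at h5
      show σ y = y
      have e1 : σ y = n i * ((n i)⁻¹ * σ y * n i) * (n i)⁻¹ := by group
      rw [e1, h5]
      group
  have h5 := h4 (conj_mem_cj.2 h3)
  have e1 : n i * ((n i)⁻¹ * r * n i) * (n i)⁻¹ = r := by group
  rwa [e1] at h5

/-- the fixed points in `U` -/
theorem fixed_U [Finite W] {σ : MulAut Y} (hσ : PX cs h X σ) {a : Y} (ha : a ∈ RGD.Sup X (RGD.Pos cs h))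
    (hc : σ a = a) : a ∈ RGD.Sup (fun x => X x ⊓ Fx σ) (RGD.Pos cs h) := by
  rw [← PW_one_eq] at ha ⊢
  exact fixed_PW R 1 hσ ha hc

/-- the normal form of a fixed element -/
theorem fixed_form [Finite W] {σ : MulAut Y} (hσ : PX cs h X σ) (hr : ∀ w k, Rp cs R.nsys w k → Rp cs R.nsys w (σ k))
    {g : Y} (hg : g ∈ GG cs h T X) (hc : σ g = g) :
    ∃ u ∈ RGD.Sup (fun x => X x ⊓ Fx σ) (RGD.Pos cs h), ∃ w k, Rp cs R.nsys w k ∧ σ k = k ∧
      ∃ v ∈ RGD.Sup (fun x => X x ⊓ Fx σ) (RGD.Pos cs h), g = u * k * v := by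
  obtain ⟨w, hw⟩ := (mem_GG R).1 hg
  obtain ⟨u, hu, k, hk, v, hv, rfl⟩ := exists_normal_form R hw
  have hv' : v ∈ RGD.Sup X (RGD.Pos cs h) :=
    RGD.Sup_mono (S := NW cs h w) (S' := RGD.Pos cs h) (fun x hx => ⟨hx.1, hx.2.1⟩) hv
  rw [map_mul, map_mul] at hc
  obtain ⟨h1, h2, h3⟩ := normal_form_unique R (hσ.sup (fun x hx => hx.1) hu) hu (hr w k hk) hk
    (hσ.sup (fun x hx => hx.1) hv) hv hc
  exact ⟨u, fixed_U R hσ hu h1, w, k, hk, h2, v, fixed_U R hσ hv' h3, rfl⟩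

/-- uniqueness of the factors of the `μ`-element -/
theorem mu_factors [Finite W] {x : I → ℤ} (hx : IsRoot cs h x) {a u v u' v' : Y} {w : W} (hu : u ∈ X (-x))
    (hv : v ∈ X (-x)) (hu' : u' ∈ X (-x)) (hv' : v' ∈ X (-x)) (hw : Rp cs R.nsys w (u * a * v))
    (hw' : Rp cs R.nsys w (u' * a * v')) (e : rep cs h w x = -x) : u' = u ∧ v' = v := by
  have : Fintype W := Fintype.ofFinite W
  set m := u * a * v with hm
  set m' := u' * a * v' with hm'
  have h1 : m' = (u' * u⁻¹) * m * (v⁻¹ * v') := by rw [hm, hm']; group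
  have h3 : m⁻¹ * (u' * u⁻¹) * m ∈ X x := by
    have := R.conj_mem' hw hx.neg (mul_mem hu' (inv_mem hu))
    have e2 : rep cs h w⁻¹ (-x) = x := by rw [← e, rep_inv_apply]
    rwa [e2] at this
  have h4 : m⁻¹ * m' = (m⁻¹ * (u' * u⁻¹) * m) * (v⁻¹ * v') := by rw [h1]; group
  have h5 : m⁻¹ * m' ∈ T := by
    have := hw.inv.mul hw'
    rw [inv_mul_cancel] at this
    exact this.mem_of_one
  rw [h4] at h5
  obtain ⟨h6, h7⟩ := Cfsg.Agent.Nodes.MuSq.eq_one_of_mul R hx h3 (mul_mem (inv_mem hv) hv') h5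
  constructor
  · have h8 : u' * u⁻¹ = 1 := by
      have : u' * u⁻¹ = m * (m⁻¹ * (u' * u⁻¹) * m) * m⁻¹ := by group
      rw [this, h6]; group
    exact mul_inv_eq_one.1 h8
  · exact (inv_mul_eq_one.1 h7).symm

/-- **the `μ`-element of a fixed element** -/
theorem fixed_mu [Finite W] {σ : MulAut Y} (hσ : PX cs h X σ) (hr : ∀ w k, Rp cs R.nsys w k → Rp cs R.nsys w (σ k))
    {x : I → ℤ} (hx : IsRoot cs h x) {a : Y} (ha : a ∈ X x) (hne : a ≠ 1) (hc : σ a = a) :
    ∃ u ∈ X (-x) ⊓ Fx σ, ∃ v ∈ X (-x) ⊓ Fx σ, ∃ w : W, Rp cs R.nsys w (u * a * v) ∧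
      ∀ z, rep cs h w z = z - cpr cs h z x • x := by
  have : Fintype W := Fintype.ofFinite W
  obtain ⟨u, hu, v, hv, w, hw, -, e⟩ := Cfsg.Agent.Nodes.MuSq.exists_mu' R hx ha hne
  have hex : rep cs h w x = -x := by
    rw [e, cpr_self cs h hx]
    funext k
    simp only [Pi.sub_apply, Pi.smul_apply, smul_eq_mul, Pi.neg_apply]
    ring
  have hw' := hr w _ hw
  rw [map_mul, map_mul, hc] at hw'
  obtain ⟨h1, h2⟩ := mu_factors R hx hu hv (hσ _ hx.neg _ hu) (hσ _ hx.neg _ hv) hw hw' hex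
  exact ⟨u, ⟨hu, h1⟩, v, ⟨hv, h2⟩, w, hw, e⟩

end Cfsg.Agent.H244.TD
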