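import Cfsg.Agent.H244.TD.OneFin

/-!
# S3509, `³D₄(q)`, second class, `q ≡ 1 mod 3`: the action on the root groups (helper244)

`xo hK hφ (hS d) τ`, `d ^ 3 = 1`.
* `px`, `rp` : root groups and representatives are preserved;
* `short` : fixed points in the short root groups.
-/

set_option autoImplicit false
set_option linter.unusedSectionVars false

namespace Cfsg.Agent.H244.TD.One

open CoxeterSystem Cfsg.Agent.ChevalleyStructure.CoxeterGeom Cfsg.Agent.Tits.Roots Cfsg.Agent.Tits.Core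
  Cfsg.Agent.Tits.Exchange Cfsg.Agent.Nodes.Reps Cfsg.Agent.Nodes.BNOf Cfsg.Agent.Nodes.StabComb
  Cfsg.Agent.Nodes.Bruhat Cfsg.Agent.Nodes.OppDec Cfsg.Agent.Nodes.LeviDec Cfsg.Agent.Nodes.RGDTwGen
  Cfsg.Agent.Nodes.RGDChev Cfsg.Agent.Nodes.RGDFold Cfsg.Agent.Nodes.RGDFoldSL
open Cfsg.Agent.Nodes.Comb Cfsg.Agent.Nodes.Coroot Cfsg.Agent.Tits.RootComb
open Cfsg.Agent.KFacts.RgdOpp Cfsg.Agent.KFacts.RgdAut Cfsg.Agent.KFacts.RgdDiag Cfsg.Agent.KFacts.RgdRigid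
  Cfsg.Agent.KFacts.RgdField Cfsg.Agent.KFacts.RgdTau Cfsg.Agent.KFacts.RgdNodes
open Cfsg.Lie Cfsg.Agent.ChevalleyStructure Cfsg.Agent.ChevalleyStructure.Elts
open Cfsg.Agent.ChevalleyStructure.SL2Hom (up lo mem_closure_SL2)
open Cfsg.Agent.KFacts.TwDFour.Out
open Cfsg.Agent.Nodes.RGDTwD4 Cfsg.Agent.Nodes.RGDTwNode.D4
open Cfsg.Agent.CpAut.RgdFix Cfsg.Agent.CpAut.RgdConj Cfsg.Agent.CpAut.RgdTwStd Cfsg.Agent.CpAut.RgdTwD4
open Cfsg.Agent.H866.D4Wf.Frame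
open Cfsg.Agent.H244.TD
open Cfsg.Agent.H911.TD (xo xo_apply)
open Cfsg.Agent.H866.TD (hilbert)

variable {K : Type} [Field K] [Fintype K] {q : ℕ} (hK : Fintype.card K = q ^ 3)
  {φ : K →+* K} (hφ : ∀ x, φ x = x ^ q) {r : ℕ} [Fact r.Prime] [CharP K r]

/-- representatives fixed by the field automorphisms -/
theorem exists_m (w : CoxeterMatrix.G₂.Group) : ∃ m, Rp cs (rgd' hK hφ r).nsys w m ∧ ∀ τ : K ≃+* K, st q τ m = m := by
  obtain ⟨m, hm, h⟩ := exists_rp_closure (cs := cs) (hN := (rgd' hK hφ r).nsys) w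
  refine ⟨m, h, fun τ => ?_⟩
  have h1 : Subgroup.closure (Set.range (n hφ)) ≤ MonoidHom.eqLocus (st q τ).toMonoidHom (MonoidHom.id _) := by
    rw [Subgroup.closure_le]
    rintro _ ⟨i, rfl⟩
    exact st_n hφ τ i
  exact h1 hm

theorem px {d : KD φ 0} (hd : d ≠ 0) (τ : K ≃+* K) {z : Fin 2 → ℤ} (hz : z ∈ rts) {a : ↥(twistedD4 K q)}
    (ha : a ∈ X φ q z) : xo hK hφ (hS d) τ a ∈ X φ q z := by
  rw [xo_apply]
  exact t_conj hK hφ hz (PhiD_hS hφ hK 0 d hd) ((fixX_st hK hφ τ (isRoot_of_mem hz) a).2 ha)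

theorem rp {d : KD φ 0} (hd : d ≠ 0) (τ : K ≃+* K) {w : CoxeterMatrix.G₂.Group} {k : ↥(twistedD4 K q)}
    (hk : Rp cs (rgd' hK hφ r).nsys w k) : Rp cs (rgd' hK hφ r).nsys w (xo hK hφ (hS d) τ k) := by
  obtain ⟨m, hm, hmτ⟩ := exists_m hK hφ (r := r) w
  have h1 : m⁻¹ * k ∈ T K q := by
    have h2 := hm.inv.mul hk
    rw [inv_mul_cancel] at h2
    exact h2.mem_of_one
  have hst : st q τ (m⁻¹ * k) ∈ T K q := (st_T τ _).2 h1
  have hh := PhiD_hS hφ hK 0 d hd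
  have e : xo hK hφ (hS d) τ k = PhiD hφ hK 0 (hS d) * m * (st q τ (m⁻¹ * k) * (PhiD hφ hK 0 (hS d))⁻¹) := by
    rw [xo_apply, map_mul (st q τ), map_inv (st q τ), hmτ τ]
    group
  rw [e]
  have h3 : Rp cs (rgd' hK hφ r).nsys (1 * w) (PhiD hφ hK 0 (hS d) * m) := (rp_of_mem hh).mul hm
  rw [one_mul] at h3
  exact h3.mul_mem_right (mul_mem hst (inv_mem hh))

theorem sh_eq : ∀ z ∈ sh, ∃ w : CoxeterMatrix.G₂.Group, rep cs isCartan w (sr 1) = z := by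
  intro z hz
  simp only [sh, List.mem_cons, List.not_mem_nil, or_false] at hz
  rcases hz with rfl | rfl | rfl | rfl | rfl | rfl
  · exact ⟨1, by rw [map_one, sr1_eq]; rfl⟩
  · exact ⟨cs.simple 0, by rw [sr1_eq, rep0]; decide⟩
  · exact ⟨cs.simple 1 * cs.simple 0, by rw [rep_mul_apply, sr1_eq, rep0, rep1]; decide⟩
  · exact ⟨cs.simple 1, by rw [sr1_eq, rep1]; decide⟩
  · exact ⟨cs.simple 0 * cs.simple 1, by rw [rep_mul_apply, sr1_eq, rep1, rep0]; decide⟩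
  · exact ⟨cs.simple 1 * (cs.simple 0 * cs.simple 1), by rw [rep_mul_apply, rep_mul_apply, sr1_eq, rep1, rep0, rep1]; decide⟩

/-- fixed points in the short root groups -/
theorem short (hq : IsPrimePow q) (h3 : q % 3 = 1) {d : KD φ 0} (hd : d ^ 3 = 1) {τ : K ≃+* K} (hτ : τ ^ 3 = 1)
    (hτ1 : τ ≠ 1) {z : Fin 2 → ℤ} (hz : z ∈ sh) : ∃ a ∈ X φ q z, a ≠ 1 ∧ xo hK hφ (hS d) τ a = a := by
  obtain ⟨r, hr⟩ := CharP.exists K
  have : Fact r.Prime := ⟨CharP.char_is_prime K r⟩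
  obtain ⟨w, hw⟩ := sh_eq z hz
  obtain ⟨m, hm, hmτ⟩ := exists_m hK hφ (r := r) w
  have hd0 : d ≠ 0 := by
    rintro rfl
    rw [zero_pow three_ne_zero] at hd
    exact zero_ne_one hd
  have hh := PhiD_hS hφ hK 0 d hd0
  obtain ⟨t, ht⟩ : ∃ t, t = m⁻¹ * PhiD hφ hK 0 (hS d) * m := ⟨_, rfl⟩
  have htT : t ∈ T K q := by
    rw [ht]
    have := (Subgroup.mem_normalizer_iff.1 hm.inv.mem_normalizer _).1 hh
    rwa [inv_inv] at this
  have hS3 : (hS d : Matrix.SpecialLinearGroup (Fin 2) (KD φ 0)) ^ 3 = 1 := by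
    apply Subtype.ext
    rw [Matrix.SpecialLinearGroup.coe_pow, coe_hS hd0]
    have h5 : (!![d, 0; 0, d⁻¹] : Matrix (Fin 2) (Fin 2) (KD φ 0)) ^ 3 = !![d ^ 3, 0; 0, (d ^ 3)⁻¹] := by
      rw [pow_succ, pow_two, Matrix.mul_fin_two, Matrix.mul_fin_two]
      ext i j
      fin_cases i <;> fin_cases j <;> simp [pow_succ, mul_assoc]
    rw [h5, hd, inv_one, Matrix.SpecialLinearGroup.coe_one, Matrix.one_fin_two]
  have ht3 : t ^ 3 = 1 := by
    have e : t ^ 3 = m⁻¹ * (PhiD hφ hK 0 (hS d)) ^ 3 * m := by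
      rw [ht]
      have := conj_pow (i := 3) (a := m⁻¹) (b := PhiD hφ hK 0 (hS d))
      rw [inv_inv] at this
      exact this
    rw [e, ← map_pow, hS3, map_one, mul_one, inv_mul_cancel]
  obtain ⟨c, hc⟩ : ∃ c : K, c = (chD hφ hK 1 t : K) := ⟨_, rfl⟩
  have hc3 : c ^ 3 = 1 := by
    have h1 : chD hφ hK 1 (t ^ 3) = chD hφ hK 1 t ^ 3 := by
      rw [pow_succ, pow_two, ch_mul hK hφ (mul_mem htT htT) htT, ch_mul hK hφ htT htT]
      ring
    rw [ht3, ch_one hK hφ] at h1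
    rw [hc]
    exact (congrArg (fun a : KD φ 1 => (a : K)) h1).symm
  have hφc : φ c = c := by
    rw [hφ]
    have h1 : q = 3 * (q / 3) + 1 := by omega
    rw [h1, pow_succ, pow_mul, hc3, one_pow, one_mul]
  have hτc : τ c = c := tau_fix hK hφ hq hτ hφc
  obtain ⟨u, hu, hu'⟩ := hilbert (σ := τ) (fun a => by
      have : (τ ^ 3) a = a := by rw [hτ]; rfl
      exact this) (by
      by_contra hcon
      push Not at hcon
      exact hτ1 (RingEquiv.ext hcon)) (c := c) (by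
      rw [hτc, hτc, ← hc3]
      ring)
  obtain ⟨v, hv⟩ : ∃ v : KD φ 1, (v : K) = u := ⟨⟨u, mem_KD1 hK hφ _⟩, rfl⟩
  have hcv : chD hφ hK 1 t * rs hφ τ 1 v = v := by
    apply Subtype.ext
    show (chD hφ hK 1 t : K) * τ (v : K) = (v : K)
    rw [hv, ← hc, hu']
  refine ⟨m * PhiD hφ hK 1 (up v) * m⁻¹, ?_, ?_, ?_⟩
  · rw [← hw]
    exact (rgd' hK hφ r).conj_mem hm (isRoot_sr cs isCartan 1) ((mem_X hφ hK 1 _).2 ⟨v, rfl⟩)
  · intro h
    have h1 : PhiD hφ hK 1 (up v) = 1 := conj_eq_one_iff.1 h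
    refine (coordD hφ hK 1).ne_one ?_ h1
    intro hv0
    apply hu
    rw [← hv, hv0]
    rfl
  · have e1 : t * PhiD hφ hK 1 (up (rs hφ τ 1 v)) * t⁻¹ = PhiD hφ hK 1 (up v) := by
      rw [act_up hK hφ htT, hcv]
    rw [xo_apply, map_mul (st q τ), map_mul (st q τ), map_inv (st q τ), hmτ τ, st_up]
    conv_rhs => rw [← e1]
    rw [ht]
    group

end Cfsg.Agent.H244.TD.One
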