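import Cfsg.Agent.H244.TD.Gen
import Cfsg.Agent.H866.D4Wf.Row
import Cfsg.Agent.H398.RG.Base
import Cfsg.Agent.H911.TD.KillII

/-!
# S3509, `³D₄(q)`: the centralizer of a triality automorphism of the second class, `q ≡ 1 mod 3` (helper244)

`σ` an automorphism of `³D₄(q)` preserving all root groups, without fixed points on the long root groups and with fixed points on
the short ones, and not fixing a representative of the reflection of the long node.
-/

set_option autoImplicit false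
set_option linter.unusedSectionVars false
set_option maxHeartbeats 400000

namespace Cfsg.Agent.H244.TD.One

open CoxeterSystem Cfsg.Agent.ChevalleyStructure.CoxeterGeom Cfsg.Agent.Tits.Roots Cfsg.Agent.Tits.Core
  Cfsg.Agent.Tits.Exchange Cfsg.Agent.Nodes.Reps Cfsg.Agent.Nodes.BNOf Cfsg.Agent.Nodes.StabComb
  Cfsg.Agent.Nodes.Bruhat Cfsg.Agent.Nodes.OppDec Cfsg.Agent.Nodes.LeviDec Cfsg.Agent.Nodes.RGDTwGen
  Cfsg.Agent.Nodes.RGDChev Cfsg.Agent.Nodes.RGDFold Cfsg.Agent.Nodes.RGDFoldSL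
open Cfsg.Agent.Nodes.Comb Cfsg.Agent.Nodes.Coroot Cfsg.Agent.Tits.RootComb
open Cfsg.Agent.KFacts.RgdOpp Cfsg.Agent.KFacts.RgdAut Cfsg.Agent.KFacts.RgdDiag Cfsg.Agent.KFacts.RgdRigid
  Cfsg.Agent.KFacts.RgdField Cfsg.Agent.KFacts.RgdTau Cfsg.Agent.KFacts.RgdNodes
open Cfsg.Lie Cfsg.Agent.ChevalleyStructure Cfsg.Agent.ChevalleyStructure.Elts
open Cfsg.Agent.ChevalleyStructure.SL2Hom (up lo mem_closure_SL2)
open Cfsg.Agent.KFacts.TwDFour.Out
open Cfsg.Agent.Nodes.RGDTwD4 Cfsg.Agent.Nodes.RGDTwNode.D4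
open Cfsg.Agent.CpAut.RgdFix Cfsg.Agent.CpAut.RgdConj Cfsg.Agent.CpAut.RgdTwStd Cfsg.Agent.CpAut.RgdTwD4
open Cfsg.Agent.H866.D4Wf.Frame
open Cfsg.Agent.H244.TD
open scoped commutatorElement

/-! ### roots -/

/-- the short roots -/
def sh : List (Fin 2 → ℤ) := [![0, 1], ![1, 1], ![1, 2], ![0, -1], ![-1, -1], ![-1, -2]]

/-- the long roots -/
def lg : List (Fin 2 → ℤ) := [![1, 0], ![1, 3], ![2, 3], ![-1, 0], ![-1, -3], ![-2, -3]]

theorem rts_or {z : Fin 2 → ℤ} (hz : z ∈ rts) : z ∈ sh ∨ z ∈ lg := by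
  have key : ∀ z ∈ rts, z ∈ sh ∨ z ∈ lg := by decide
  exact key z hz

theorem sh_rts {z : Fin 2 → ℤ} (hz : z ∈ sh) : z ∈ rts := by
  have key : ∀ z ∈ sh, z ∈ rts := by decide
  exact key z hz

theorem lg_rts {z : Fin 2 → ℤ} (hz : z ∈ lg) : z ∈ rts := by
  have key : ∀ z ∈ lg, z ∈ rts := by decide
  exact key z hz


local instance finG2 : Finite CoxeterMatrix.G₂.Group := finiteW cs

/-- the reflection in `[0, 1]` -/
theorem cpr_a (a b : ℤ) : (![a, b] : Fin 2 → ℤ) - cpr cs isCartan ![a, b] (sr 1) • (sr 1 : Fin 2 → ℤ) = ![a, 3 * a - b] := by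
  rw [cpr_sr, ← rep_simple_eq cs isCartan 1, rep1]

theorem the_eq : (![1, 2] : Fin 2 → ℤ) = rep cs isCartan (cs.simple 1 * cs.simple 0) (sr 1) := by
  rw [rep_mul_apply, sr1_eq, rep0, rep1]
  decide

/-- the reflection in `[1, 2]` -/
theorem cpr_t (a b : ℤ) : (![a, b] : Fin 2 → ℤ) - cpr cs isCartan ![a, b] ![1, 2] • (![1, 2] : Fin 2 → ℤ) =
    ![a - b, -b] := by
  have h1 : cpr cs isCartan ![a, b] ![1, 2] = b := by
    conv_lhs => rw [the_eq]
    rw [cpr_rep_sr, mul_inv_rev, cs.inv_simple, cs.inv_simple, rep_mul_apply, rep1, rep0]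
    simp [pairing, A, Fin.sum_univ_two]
    ring
  rw [h1]
  ext k
  fin_cases k
  · simp
  · simp
    ring


/-- elements of the Weyl group with `w [0, 1] > 0`, `w [1, 1] > 0` -/
theorem w_cases {w : CoxeterMatrix.G₂.Group} (h1 : 0 ≤ rep cs isCartan w ![0, 1]) (h2 : 0 ≤ rep cs isCartan w ![1, 1]) :
    w = 1 ∨ w = cs.simple 0 := by
  have key : ∀ w : CoxeterMatrix.G₂.Group, 0 ≤ rep cs isCartan w ![0, 1] → 0 ≤ rep cs isCartan w ![1, 0] → w = 1 := by
    intro w h1 h2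
    refine eq_one_of_nonneg cs isCartan w fun j => ?_
    fin_cases j
    · show 0 ≤ rep cs isCartan w (sr 0)
      rw [sr0_eq]; exact h2
    · show 0 ≤ rep cs isCartan w (sr 1)
      rw [sr1_eq]; exact h1
  rcases ((isRoot_of_mem (z := ![1, 0]) (by decide)).act w).pos_or_neg with h3 | h3
  · exact Or.inl (key w h1 h3)
  · right
    have h4 := key (w * cs.simple 0) (by
      rw [rep_mul_apply, rep0]
      exact h2) (by
      rw [rep_mul_apply, rep0]
      have e : (![0 - 1, 0] : Fin 2 → ℤ) = -![1, 0] := by decide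
      rw [e, map_neg]
      exact neg_nonneg.2 h3)
    have h5 : w = (cs.simple 0)⁻¹ := eq_inv_of_mul_eq_one_left h4
    rw [h5, cs.inv_simple]

/-- elements of the Weyl group fixing `[1, 2]` -/
theorem w_cases' {w : CoxeterMatrix.G₂.Group} (h : rep cs isCartan w ![1, 2] = ![1, 2]) : w = 1 ∨ w = cs.simple 0 := by
  obtain ⟨x, hx⟩ : ∃ x, x = rep cs isCartan w ![0, 1] := ⟨_, rfl⟩
  obtain ⟨y, hy⟩ : ∃ y, y = rep cs isCartan w ![1, 1] := ⟨_, rfl⟩
  have hx1 : x ∈ rts := by rw [hx]; exact root_mem ((isRoot_of_mem (z := ![0, 1]) (by decide)).act w)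
  have hy1 : y ∈ rts := by rw [hy]; exact root_mem ((isRoot_of_mem (z := ![1, 1]) (by decide)).act w)
  have hxy : x + y = ![1, 2] := by
    rw [hx, hy, ← map_add, ← h]
    congr 1
    decide
  have hyx : y - x ∈ rts := by
    have e : y - x = rep cs isCartan w ![1, 0] := by
      rw [hx, hy, ← map_sub]
      congr 1
      decide
    rw [e]
    exact root_mem ((isRoot_of_mem (z := ![1, 0]) (by decide)).act w)
  have key : ∀ x ∈ rts, ∀ y ∈ rts, x + y = ![1, 2] → y - x ∈ rts → (0 ≤ x 0 ∧ 0 ≤ x 1) ∧ (0 ≤ y 0 ∧ 0 ≤ y 1) := by decide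
  obtain ⟨⟨a1, a2⟩, b1, b2⟩ := key x hx1 y hy1 hxy hyx
  refine w_cases ?_ ?_
  · rw [← hx]
    intro k
    fin_cases k
    · exact a1
    · exact a2
  · rw [← hy]
    intro k
    fin_cases k
    · exact b1
    · exact b2

theorem btwn_a {z : Fin 2 → ℤ} (hz : z ∈ rts) {m a b : ℤ} (hm : 0 < m) (ha : 0 < a) (hb : 0 < b)
    (h0 : m * z 0 = a * 0 + b * 1) (h1 : m * z 1 = a * 1 + b * 2) : z = ![1, 3] := by
  simp only [rts, List.mem_cons, List.not_mem_nil, or_false] at hz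
  rcases hz with rfl | rfl | rfl | rfl | rfl | rfl | rfl | rfl | rfl | rfl | rfl | rfl <;>
    simp only [Matrix.cons_val_zero, Matrix.cons_val_one, Matrix.cons_val_fin_one] at h0 h1 <;> first | rfl | (exfalso; omega)

theorem btwn_b {z : Fin 2 → ℤ} (hz : z ∈ rts) {m a b : ℤ} (hm : 0 < m) (ha : 0 < a) (hb : 0 < b)
    (h0 : m * z 0 = a * 1 + b * 1) (h1 : m * z 1 = a * 1 + b * 2) : z = ![2, 3] := by
  simp only [rts, List.mem_cons, List.not_mem_nil, or_false] at hz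
  rcases hz with rfl | rfl | rfl | rfl | rfl | rfl | rfl | rfl | rfl | rfl | rfl | rfl <;>
    simp only [Matrix.cons_val_zero, Matrix.cons_val_one, Matrix.cons_val_fin_one] at h0 h1 <;> first | rfl | (exfalso; omega)

theorem btwn_na {z : Fin 2 → ℤ} (hz : z ∈ rts) {m a b : ℤ} (hm : 0 < m) (ha : 0 < a) (hb : 0 < b)
    (h0 : m * z 0 = a * 0 + b * -1) (h1 : m * z 1 = a * -1 + b * -2) : z = ![-1, -3] := by
  simp only [rts, List.mem_cons, List.not_mem_nil, or_false] at hz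
  rcases hz with rfl | rfl | rfl | rfl | rfl | rfl | rfl | rfl | rfl | rfl | rfl | rfl <;>
    simp only [Matrix.cons_val_zero, Matrix.cons_val_one, Matrix.cons_val_fin_one] at h0 h1 <;> first | rfl | (exfalso; omega)

theorem btwn_nb {z : Fin 2 → ℤ} (hz : z ∈ rts) {m a b : ℤ} (hm : 0 < m) (ha : 0 < a) (hb : 0 < b)
    (h0 : m * z 0 = a * -1 + b * -1) (h1 : m * z 1 = a * -1 + b * -2) : z = ![-2, -3] := by
  simp only [rts, List.mem_cons, List.not_mem_nil, or_false] at hz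
  rcases hz with rfl | rfl | rfl | rfl | rfl | rfl | rfl | rfl | rfl | rfl | rfl | rfl <;>
    simp only [Matrix.cons_val_zero, Matrix.cons_val_one, Matrix.cons_val_fin_one] at h0 h1 <;> first | rfl | (exfalso; omega)

theorem mem_norm_of_comm {G : Type*} [Group G] {S : Subgroup G} {a : G} (h : ∀ b ∈ S, a * b = b * a) :
    a ∈ Subgroup.normalizer (S : Set G) := by
  rw [Subgroup.mem_normalizer_iff]
  intro b
  constructor
  · intro hb
    rw [h b hb, mul_inv_cancel_right]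
    exact hb
  · intro hb
    have h1 := h _ hb
    have e : b = a * b * a⁻¹ := by
      have h2 : a * (a * b * a⁻¹) * a⁻¹ = a * b * a⁻¹ := by rw [h1]; group
      have h3 : a * (a * b * a⁻¹) = a * b * a⁻¹ * a := h1
      have h4 : a * (a * b * a⁻¹) = a * b := by rw [h3]; group
      exact (mul_left_cancel h4).symm
    rw [e]
    exact hb

/-! ### the fixed points -/

variable {K : Type} [Field K] [Fintype K] {q : ℕ} (hK : Fintype.card K = q ^ 3)
  {φ : K →+* K} (hφ : ∀ x, φ x = x ^ q) {r : ℕ} [Fact r.Prime] [CharP K r] {σ : MulAut ↥(twistedD4 K q)}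

/-- the hypotheses on `σ` -/
structure Hy (r : ℕ) [Fact r.Prime] [CharP K r] (σ : MulAut ↥(twistedD4 K q)) : Prop where
  px : ∀ z ∈ rts, ∀ a ∈ X φ q z, σ a ∈ X φ q z
  rp : ∀ w k, Rp cs (rgd' hK hφ r).nsys w k → Rp cs (rgd' hK hφ r).nsys w (σ k)
  long : ∀ z ∈ lg, ∀ a ∈ X φ q z, σ a = a → a = 1
  short : ∀ z ∈ sh, ∃ a ∈ X φ q z, a ≠ 1 ∧ σ a = a
  s0 : ∀ k, Rp cs (rgd' hK hφ r).nsys (cs.simple 0) k → σ k = k → False

/-- the fixed points in a root group -/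
noncomputable def f (φ : K →+* K) (q : ℕ) (σ : MulAut ↥(twistedD4 K q)) (z : Fin 2 → ℤ) : Subgroup ↥(twistedD4 K q) := X φ q z ⊓ Fx σ

theorem mem_f {z : Fin 2 → ℤ} {a : ↥(twistedD4 K q)} : a ∈ f φ q σ z ↔ a ∈ X φ q z ∧ σ a = a := Iff.rfl

variable {hK hφ}

section main

variable (H : Hy hK hφ r σ)

include H

theorem Hy.PX : PX cs isCartan (X φ q) σ := fun x hx => H.px x (root_mem hx)

theorem Hy.f_long {z : Fin 2 → ℤ} (hz : z ∈ lg) : f φ q σ z = ⊥ := by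
  rw [eq_bot_iff]
  intro a ha
  exact H.long z hz a ha.1 ha.2

theorem Hy.conj_f {w : CoxeterMatrix.G₂.Group} {k : ↥(twistedD4 K q)} (hk : Rp cs (rgd' hK hφ r).nsys w k)
    (hσ : σ k = k) {z : Fin 2 → ℤ} (hz : z ∈ rts) {a : ↥(twistedD4 K q)} (ha : a ∈ f φ q σ z) :
    k * a * k⁻¹ ∈ f φ q σ (rep cs isCartan w z) := by
  refine ⟨(rgd' hK hφ r).conj_mem hk (isRoot_of_mem hz) ha.1, ?_⟩
  show σ (k * a * k⁻¹) = k * a * k⁻¹
  rw [map_mul, map_mul, map_inv, hσ, show σ a = a from ha.2]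

theorem Hy.cj_f {w : CoxeterMatrix.G₂.Group} {k : ↥(twistedD4 K q)} (hk : Rp cs (rgd' hK hφ r).nsys w k)
    (hσ : σ k = k) {z : Fin 2 → ℤ} (hz : z ∈ rts) :
    Cfsg.Agent.H398.RG.cj k (f φ q σ z) = f φ q σ (rep cs isCartan w z) := by
  ext y
  rw [Cfsg.Agent.H398.RG.mem_cj]
  constructor
  · intro h1
    have h2 := H.conj_f hk hσ hz h1
    have e : k * (k⁻¹ * y * k) * k⁻¹ = y := by group
    rwa [e] at h2
  · intro h1
    have h2 := H.conj_f hk.inv (show σ k⁻¹ = k⁻¹ by rw [map_inv, hσ]) (root_mem ((isRoot_of_mem hz).act w)) h1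
    rw [rep_inv_apply, inv_inv] at h2
    exact h2

theorem Hy.comm_f {x y w : Fin 2 → ℤ} (hx : x ∈ rts) (hy : y ∈ rts) (hw : w ∈ lg) (hxy : x ≠ y) (hxy' : x ≠ -y)
    (hno : ∀ z ∈ rts, ∀ m a b : ℤ, 0 < m → 0 < a → 0 < b → m * z 0 = a * x 0 + b * y 0 →
      m * z 1 = a * x 1 + b * y 1 → z = w) {a b : ↥(twistedD4 K q)} (ha : a ∈ f φ q σ x) (hb : b ∈ f φ q σ y) :
    a * b = b * a := by
  have h1 := comm_mem_of_btwn (rgd' hK hφ r) (isRoot_of_mem hx) (isRoot_of_mem hy) hxy hxy' (w := w) (by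
    rintro z ⟨hz, m, a, b, hm, ha, hb, he⟩
    exact hno z (root_mem hz) m a b hm ha hb (congrFun he 0) (congrFun he 1)) ha.1 hb.1
  have h2 := H.long w hw _ h1 (by
    rw [map_mul, map_mul, map_mul, map_inv, map_inv, show σ a = a from ha.2, show σ b = b from hb.2])
  have e : a * b = a * b * a⁻¹ * b⁻¹ * (b * a) := by group
  rw [e, h2, one_mul]


end main

/-- the fixed points in `U` -/
noncomputable def pp (φ : K →+* K) (q : ℕ) (σ : MulAut ↥(twistedD4 K q)) : Subgroup ↥(twistedD4 K q) :=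
  RGD.Sup (fun x => X φ q x ⊓ Fx σ) (RGD.Pos cs isCartan)

/-- the fixed points in `U⁻` -/
noncomputable def qq (φ : K →+* K) (q : ℕ) (σ : MulAut ↥(twistedD4 K q)) : Subgroup ↥(twistedD4 K q) :=
  RGD.Sup (fun x => X φ q x ⊓ Fx σ) (Neg cs isCartan)

/-- the group generated by the fixed points in the root groups -/
noncomputable def kk (φ : K →+* K) (q : ℕ) (σ : MulAut ↥(twistedD4 K q)) : Subgroup ↥(twistedD4 K q) := pp φ q σ ⊔ qq φ q σ

section main2

variable (H : Hy hK hφ r σ)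

omit [Fact r.Prime] [CharP K r] in
theorem pp_le_Fx : pp φ q σ ≤ Fx σ := RGD.Sup_le fun _ _ => inf_le_right

omit [Fact r.Prime] [CharP K r] in
theorem qq_le_Fx : qq φ q σ ≤ Fx σ := RGD.Sup_le fun _ _ => inf_le_right

omit [Fact r.Prime] [CharP K r] in
theorem kk_le_Fx : kk φ q σ ≤ Fx σ := sup_le pp_le_Fx qq_le_Fx

omit [Fact r.Prime] [CharP K r] in
theorem pp_le_U : pp φ q σ ≤ RGD.Sup (X φ q) (RGD.Pos cs isCartan) :=
  RGD.Sup_le fun _ hz => inf_le_left.trans (RGD.le_Sup hz)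

omit [Fact r.Prime] [CharP K r] in
theorem qq_le_UN : qq φ q σ ≤ UN cs isCartan (X φ q) :=
  RGD.Sup_le fun _ hz => inf_le_left.trans (RGD.le_Sup (S := Neg cs isCartan) hz)

omit [Fact r.Prime] [CharP K r] in
theorem f_le_kk {z : Fin 2 → ℤ} (hz : z ∈ rts) : f φ q σ z ≤ kk φ q σ := by
  rcases (isRoot_of_mem hz).pos_or_neg with h0 | h0
  · exact le_sup_of_le_left (RGD.le_Sup (X := fun x => X φ q x ⊓ Fx σ) (S := RGD.Pos cs isCartan) ⟨isRoot_of_mem hz, h0⟩)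
  · exact le_sup_of_le_right (RGD.le_Sup (X := fun x => X φ q x ⊓ Fx σ) (S := Neg cs isCartan) ⟨isRoot_of_mem hz, h0⟩)

include H

theorem Hy.pp_le {S : Subgroup ↥(twistedD4 K q)} (h : ∀ z ∈ [![0, 1], ![1, 1], ![1, 2]], f φ q σ z ≤ S) : pp φ q σ ≤ S := by
  refine RGD.Sup_le fun z hz => ?_
  have hz1 := root_mem hz.1
  rcases rts_or hz1 with h1 | h1
  · refine h z ?_
    have h0 := hz.2 1
    simp only [sh, List.mem_cons, List.not_mem_nil, or_false] at h1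
    rcases h1 with rfl | rfl | rfl | rfl | rfl | rfl <;> first | decide | (exfalso; simp at h0)
  · have h2 := H.f_long h1
    unfold f at h2
    rw [h2]
    exact bot_le

theorem Hy.qq_le {S : Subgroup ↥(twistedD4 K q)} (h : ∀ z ∈ [![0, -1], ![-1, -1], ![-1, -2]], f φ q σ z ≤ S) :
    qq φ q σ ≤ S := by
  refine RGD.Sup_le fun z hz => ?_
  have hz1 := root_mem hz.1
  rcases rts_or hz1 with h1 | h1
  · refine h z ?_
    have h0 := hz.2 1
    simp only [sh, List.mem_cons, List.not_mem_nil, or_false] at h1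
    rcases h1 with rfl | rfl | rfl | rfl | rfl | rfl <;> first | decide | (exfalso; simp at h0)
  · have h2 := H.f_long h1
    unfold f at h2
    rw [h2]
    exact bot_le

/-- `P` normalises `X` -/
theorem Hy.hP {g : ↥(twistedD4 K q)} (hg : g ∈ pp φ q σ) {x : ↥(twistedD4 K q)} (hx : x ∈ f φ q σ ![1, 2]) :
    g * x * g⁻¹ ∈ f φ q σ ![1, 2] := by
  have h1 : pp φ q σ ≤ Subgroup.normalizer (f φ q σ ![1, 2] : Set ↥(twistedD4 K q)) := by
    refine H.pp_le fun z hz => ?_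
    simp only [List.mem_cons, List.not_mem_nil, or_false] at hz
    rcases hz with rfl | rfl | rfl
    · intro a ha
      exact mem_norm_of_comm fun b hb => H.comm_f (w := ![1, 3]) (by decide) (by decide) (by decide) (by decide) (by decide)
          (fun z hz m a b hm ha hb h0 h1 => btwn_a hz hm ha hb h0 h1) ha hb
    · intro a ha
      exact mem_norm_of_comm fun b hb => H.comm_f (w := ![2, 3]) (by decide) (by decide) (by decide) (by decide) (by decide)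
          (fun z hz m a b hm ha hb h0 h1 => btwn_b hz hm ha hb h0 h1) ha hb
    · exact Subgroup.le_normalizer
  exact (Subgroup.mem_normalizer_iff.1 (h1 hg) x).1 hx

/-- `Q` normalises `Y` -/
theorem Hy.hQ {g : ↥(twistedD4 K q)} (hg : g ∈ qq φ q σ) {x : ↥(twistedD4 K q)} (hx : x ∈ f φ q σ ![-1, -2]) :
    g * x * g⁻¹ ∈ f φ q σ ![-1, -2] := by
  have h1 : qq φ q σ ≤ Subgroup.normalizer (f φ q σ ![-1, -2] : Set ↥(twistedD4 K q)) := by
    refine H.qq_le fun z hz => ?_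
    simp only [List.mem_cons, List.not_mem_nil, or_false] at hz
    rcases hz with rfl | rfl | rfl
    · intro a ha
      exact mem_norm_of_comm fun b hb => H.comm_f (w := ![-1, -3]) (by decide) (by decide) (by decide) (by decide) (by decide)
          (fun z hz m a b hm ha hb h0 h1 => btwn_na hz hm ha hb h0 h1) ha hb
    · intro a ha
      exact mem_norm_of_comm fun b hb => H.comm_f (w := ![-2, -3]) (by decide) (by decide) (by decide) (by decide) (by decide)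
          (fun z hz m a b hm ha hb h0 h1 => btwn_nb hz hm ha hb h0 h1) ha hb
    · exact Subgroup.le_normalizer
  exact (Subgroup.mem_normalizer_iff.1 (h1 hg) x).1 hx

/-- the representative of the reflection in `[1, 2]` -/
theorem Hy.exists_kt : ∃ k ∈ f φ q σ ![1, 2] ⊔ f φ q σ ![-1, -2], ∃ w, Rp cs (rgd' hK hφ r).nsys w k ∧ σ k = k ∧
    ∀ a b, rep cs isCartan w ![a, b] = ![a - b, -b] := by
  obtain ⟨a, ha, ha1, hσ⟩ := H.short ![1, 2] (by decide)
  obtain ⟨u, hu, v, hv, w, hw, e⟩ := fixed_mu (rgd' hK hφ r) H.PX H.rp (isRoot_of_mem (by decide)) ha ha1 hσ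
  have e1 : (-![1, 2] : Fin 2 → ℤ) = ![-1, -2] := by decide
  rw [e1] at hu hv
  refine ⟨u * a * v, mul_mem (mul_mem (Subgroup.mem_sup_right hu) (Subgroup.mem_sup_left ⟨ha, hσ⟩))
    (Subgroup.mem_sup_right hv), w, hw, ?_, fun a b => by rw [e, cpr_t]⟩
  rw [map_mul, map_mul, hσ, show σ u = u from hu.2, show σ v = v from hv.2]

/-- the representative of the reflection in `[0, 1]` -/
theorem Hy.exists_ka : ∃ k ∈ kk φ q σ, ∃ w, Rp cs (rgd' hK hφ r).nsys w k ∧ σ k = k ∧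
    ∀ a b, rep cs isCartan w ![a, b] = ![a, 3 * a - b] := by
  obtain ⟨a, ha, ha1, hσ⟩ := H.short ![0, 1] (by decide)
  obtain ⟨u, hu, v, hv, w, hw, e⟩ := fixed_mu (rgd' hK hφ r) H.PX H.rp (isRoot_of_mem (by decide)) ha ha1 hσ
  have e1 : (-![0, 1] : Fin 2 → ℤ) = ![0, -1] := by decide
  rw [e1] at hu hv
  have h1 : f φ q σ ![0, 1] ≤ kk φ q σ := f_le_kk (by decide)
  have h2 : f φ q σ ![0, -1] ≤ kk φ q σ := f_le_kk (by decide)
  refine ⟨u * a * v, mul_mem (mul_mem (h2 hu) (h1 ⟨ha, hσ⟩)) (h2 hv), w, hw, ?_, fun a b => by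
    rw [e, ← sr1_eq, cpr_a]⟩
  rw [map_mul, map_mul, hσ, show σ u = u from hu.2, show σ v = v from hv.2]

/-- the fixed points of `σ` -/
theorem Hy.form {g : ↥(twistedD4 K q)} (hg : σ g = g) : ∃ u ∈ pp φ q σ, ∃ w k, Rp cs (rgd' hK hφ r).nsys w k ∧ σ k = k ∧
    ∃ v ∈ pp φ q σ, g = u * k * v :=
  fixed_form (rgd' hK hφ r) H.PX H.rp (by rw [GG_top hK hφ]; exact Subgroup.mem_top g) hg

/-- the fixed points of `σ` normalise `K` -/
theorem Hy.norm_kk {g : ↥(twistedD4 K q)} (hg : σ g = g) : ∀ m ∈ kk φ q σ, g * m * g⁻¹ ∈ kk φ q σ := by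
  obtain ⟨u, hu, w, k, hk, hσk, v, hv, rfl⟩ := H.form hg
  have h1 : ∀ m ∈ kk φ q σ, k * m * k⁻¹ ∈ kk φ q σ := by
    have h2 : kk φ q σ ≤ (kk φ q σ).comap (MulAut.conj k).toMonoidHom := by
      refine sup_le (RGD.Sup_le fun z hz a ha => ?_) (RGD.Sup_le fun z hz a ha => ?_)
      · exact f_le_kk (root_mem (hz.1.act w)) (H.conj_f hk hσk (root_mem hz.1) ha)
      · exact f_le_kk (root_mem (hz.1.act w)) (H.conj_f hk hσk (root_mem hz.1) ha)
    exact fun m hm => h2 hm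
  have hu' : u ∈ kk φ q σ := le_sup_left (α := Subgroup ↥(twistedD4 K q)) hu
  have hv' : v ∈ kk φ q σ := le_sup_left (α := Subgroup ↥(twistedD4 K q)) hv
  intro m hm
  have e : u * k * v * m * (u * k * v)⁻¹ = u * (k * (v * m * v⁻¹) * k⁻¹) * u⁻¹ := by group
  rw [e]
  exact mul_mem (mul_mem hu' (h1 _ (mul_mem (mul_mem hv' hm) (inv_mem hv')))) (inv_mem hu')


theorem Hy.nonneg_of {w : CoxeterMatrix.G₂.Group} {k : ↥(twistedD4 K q)} (hk : Rp cs (rgd' hK hφ r).nsys w k)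
    {z : Fin 2 → ℤ} (hz : z ∈ sh) (h : ∀ a ∈ f φ q σ z, k * a * k⁻¹ ∈ RGD.Sup (X φ q) (RGD.Pos cs isCartan)) :
    0 ≤ rep cs isCartan w z := by
  rcases ((isRoot_of_mem (sh_rts hz)).act w).pos_or_neg with h3 | h3
  · exact h3
  · exfalso
    obtain ⟨a, ha, ha1, hσ⟩ := H.short z hz
    apply ha1
    have h4 := h a ⟨ha, hσ⟩
    have h5 := (rgd' hK hφ r).conj_mem hk (isRoot_of_mem (sh_rts hz)) ha
    have h6 : k * a * k⁻¹ ∈ RGD.Sup (X φ q) (RGD.Pos cs isCartan) ⊓ UN cs isCartan (X φ q) :=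
      ⟨h4, X_le_UN ((isRoot_of_mem (sh_rts hz)).act w) h3 h5⟩
    rw [U_inf_UN (rgd' hK hφ r), Subgroup.mem_bot] at h6
    exact conj_eq_one_iff.1 h6

/-- `P` is a maximal `r`-subgroup of the group of fixed points -/
theorem Hy.sylow {S : Subgroup ↥(twistedD4 K q)} (hS : S ≤ Fx σ) (hp : IsPGroup r S) (hle : pp φ q σ ≤ S) :
    S = pp φ q σ := by
  have R := rgd' hK hφ r
  by_contra hne
  have hlt : pp φ q σ < S := lt_of_le_of_ne hle (Ne.symm hne)
  have hnil : Group.IsNilpotent S := hp.isNilpotent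
  have h1 : (pp φ q σ).subgroupOf S < ⊤ := by
    rw [lt_top_iff_ne_top]
    intro h2
    rw [Subgroup.subgroupOf_eq_top] at h2
    exact absurd (lt_of_lt_of_le hlt h2) (lt_irrefl _)
  have h2 := (Group.normalizerCondition_of_isNilpotent (h := hnil)) _ h1
  obtain ⟨⟨y, hyS⟩, hy, hyU⟩ := SetLike.exists_of_lt h2
  have hyn : ∀ x ∈ pp φ q σ, y * x * y⁻¹ ∈ pp φ q σ := by
    intro x hx
    have := (Subgroup.mem_normalizer_iff.1 hy ⟨x, hle hx⟩).1 (Subgroup.mem_subgroupOf.2 hx)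
    exact Subgroup.mem_subgroupOf.1 this
  have hyp : y ∉ pp φ q σ := fun h => hyU (Subgroup.mem_subgroupOf.2 h)
  have hyσ : σ y = y := hS hyS
  obtain ⟨u, hu, w, k, hk, hσk, v, hv, e⟩ := H.form hyσ
  have hkn : ∀ x ∈ pp φ q σ, k * x * k⁻¹ ∈ pp φ q σ := by
    intro x hx
    have h3 := hyn (v⁻¹ * x * v) (mul_mem (mul_mem (inv_mem hv) hx) hv)
    have h4 := mul_mem (mul_mem (inv_mem hu) h3) hu
    have e2 : u⁻¹ * (y * (v⁻¹ * x * v) * y⁻¹) * u = k * x * k⁻¹ := by rw [e]; group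
    rwa [e2] at h4
  have hfp : ∀ z ∈ rts, 0 ≤ z → f φ q σ z ≤ pp φ q σ := fun z hz h0 =>
    RGD.le_Sup (X := fun x => X φ q x ⊓ Fx σ) (S := RGD.Pos cs isCartan) ⟨isRoot_of_mem hz, h0⟩
  have hw := w_cases (H.nonneg_of hk (z := ![0, 1]) (by decide) fun a ha => pp_le_U (hkn a (hfp _ (by decide) (by intro k; fin_cases k <;> decide) ha)))
    (H.nonneg_of hk (z := ![1, 1]) (by decide) fun a ha => pp_le_U (hkn a (hfp _ (by decide) (by intro k; fin_cases k <;> decide) ha)))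
  rcases hw with rfl | rfl
  · -- `y ∈ B`
    have hyB : y ∈ RGD.B cs isCartan (T K q) (X φ q) := by
      rw [e]
      exact mul_mem (mul_mem (RGD.U_le_B (pp_le_U hu)) (RGD.T_le_B hk.mem_of_one)) (RGD.U_le_B (pp_le_U hv))
    obtain ⟨m, hm⟩ := hp ⟨y, hyS⟩
    have h5 : y ^ r ^ m = 1 := congrArg Subtype.val hm
    exact hyp (fixed_U (rgd' hK hφ r) H.PX ((rgd' hK hφ r).mem_U_of_mem_B hyB h5) hyσ)
  · exact H.s0 k hk hσk

/-- **`O_r(K) = 1`** -/
theorem Hy.core : Cfsg.pCore r ↥(kk φ q σ) = ⊥ := by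
  have R := rgd' hK hφ r
  set O := Cfsg.pCore r ↥(kk φ q σ) with hO
  have hOn : O.Normal := Cfsg.Agent.Lib.Cores.pCore_normal r
  have hOp : IsPGroup r O := Cfsg.Agent.Lib.Cores.pCore_isPGroup r
  set U := (pp φ q σ).subgroupOf (kk φ q σ) with hUdef
  have hpp : IsPGroup r (pp φ q σ) := (rgd' hK hφ r).isPGroup_Upos.to_le pp_le_U
  have hUp : IsPGroup r U := hpp.comap_subtype
  have h1 : IsPGroup r (O ⊔ U : Subgroup ↥(kk φ q σ)) := hOp.to_sup_of_normal_left hUp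
  have h2 : IsPGroup r ((O ⊔ U : Subgroup ↥(kk φ q σ)).map (kk φ q σ).subtype) := h1.map _
  have h3 : pp φ q σ ≤ (O ⊔ U : Subgroup ↥(kk φ q σ)).map (kk φ q σ).subtype := by
    intro x hx
    exact ⟨⟨x, (le_sup_left : pp φ q σ ≤ kk φ q σ) hx⟩, Subgroup.mem_sup_right (Subgroup.mem_subgroupOf.2 hx), rfl⟩
  have h4 := H.sylow (by
    rintro _ ⟨x, -, rfl⟩
    exact kk_le_Fx x.2) h2 h3
  have h5 : ∀ x ∈ O, (x : ↥(twistedD4 K q)) ∈ pp φ q σ := by
    intro x hx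
    rw [← h4]
    exact ⟨x, Subgroup.mem_sup_left hx, rfl⟩
  obtain ⟨k, hk, w, hkw, hσk, hw⟩ := H.exists_kt
  have hkK : k ∈ kk φ q σ := (sup_le (f_le_kk (by decide)) (f_le_kk (by decide)) :
    f φ q σ ![1, 2] ⊔ f φ q σ ![-1, -2] ≤ kk φ q σ) hk
  have h6 : pp φ q σ ≤ (qq φ q σ).comap (MulAut.conj k).toMonoidHom := by
    refine H.pp_le fun z hz a ha => ?_
    show k * a * k⁻¹ ∈ qq φ q σ
    have hz' : z ∈ rts := by
      have key : ∀ z ∈ [![0, 1], ![1, 1], (![1, 2] : Fin 2 → ℤ)], z ∈ rts := by decide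
      exact key z hz
    have h7 := H.conj_f hkw hσk hz' ha
    refine RGD.le_Sup (X := fun x => X φ q x ⊓ Fx σ) (S := Neg cs isCartan) ⟨(isRoot_of_mem hz').act w, ?_⟩ h7
    simp only [List.mem_cons, List.not_mem_nil, or_false] at hz
    rcases hz with rfl | rfl | rfl <;> rw [hw] <;> intro k <;> fin_cases k <;> decide
  rw [eq_bot_iff]
  intro x hx
  have h7 : (⟨k, hkK⟩ : ↥(kk φ q σ))⁻¹ * x * (⟨k, hkK⟩ : ↥(kk φ q σ))⁻¹⁻¹ ∈ O := hOn.conj_mem x hx _
  rw [inv_inv] at h7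
  have h8 : k⁻¹ * (x : ↥(twistedD4 K q)) * k ∈ pp φ q σ := h5 _ h7
  have h9 : k * (k⁻¹ * (x : ↥(twistedD4 K q)) * k) * k⁻¹ ∈ qq φ q σ := h6 h8
  have e : k * (k⁻¹ * (x : ↥(twistedD4 K q)) * k) * k⁻¹ = x := by group
  rw [e] at h9
  have h10 : (x : ↥(twistedD4 K q)) ∈ RGD.Sup (X φ q) (RGD.Pos cs isCartan) ⊓ UN cs isCartan (X φ q) :=
    ⟨pp_le_U (h5 x hx), qq_le_UN h9⟩
  rw [U_inf_UN (rgd' hK hφ r), Subgroup.mem_bot] at h10
  rw [Subgroup.mem_bot]
  exact Subtype.ext h10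


omit H in
theorem isPGroup_of_cj {G : Type*} [Group G] {p : ℕ} {g : G} {S P : Subgroup G} (hP : IsPGroup p P)
    (h : ∀ x ∈ S, g * x * g⁻¹ ∈ P) : IsPGroup p S := by
  rintro ⟨x, hx⟩
  obtain ⟨m, hm⟩ := hP ⟨_, h x hx⟩
  refine ⟨m, Subtype.ext ?_⟩
  have h1 : (g * x * g⁻¹) ^ p ^ m = 1 := congrArg Subtype.val hm
  rw [conj_pow] at h1
  exact conj_eq_one_iff.1 h1

omit H in
/-- two root groups which are not opposite generate an `r`-group -/
theorem pair_p (hK : Fintype.card K = q ^ 3) (hφ : ∀ x, φ x = x ^ q) {x y : Fin 2 → ℤ} (hx : x ∈ rts) (hy : y ∈ rts) (hne : x ≠ -y) :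
    IsPGroup r ↥(X φ q x ⊔ X φ q y : Subgroup ↥(twistedD4 K q)) := by
  obtain ⟨w, h1, h2⟩ := exists_pos_pair (isRoot_of_mem hx) (isRoot_of_mem hy) hne
  obtain ⟨k, hk⟩ := exists_rp cs (rgd' hK hφ r).nsys w
  refine isPGroup_of_cj (g := k) (rgd' hK hφ r).isPGroup_Upos fun a ha => ?_
  have h3 : (X φ q x ⊔ X φ q y : Subgroup ↥(twistedD4 K q)) ≤
      (RGD.Sup (X φ q) (RGD.Pos cs isCartan)).comap (MulAut.conj k).toMonoidHom := by
    refine sup_le (fun b hb => ?_) (fun b hb => ?_)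
    · exact RGD.le_Sup (S := RGD.Pos cs isCartan) ⟨(isRoot_of_mem hx).act w, h1⟩
        ((rgd' hK hφ r).conj_mem hk (isRoot_of_mem hx) hb)
    · exact RGD.le_Sup (S := RGD.Pos cs isCartan) ⟨(isRoot_of_mem hy).act w, h2⟩
        ((rgd' hK hφ r).conj_mem hk (isRoot_of_mem hy) hb)
  exact h3 ha

/-- **The base pair.** -/
theorem Hy.base (hnp : ¬ IsPGroup r ↥(f φ q σ ![1, 2] ⊔ f φ q σ ![-1, -2] : Subgroup ↥(twistedD4 K q))) :
    Cfsg.Agent.H398.RG.Base r (kk φ q σ) (f φ q σ ![1, 2]) (f φ q σ ![-1, -2]) (pp φ q σ) (qq φ q σ) ⊥ := by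
  obtain ⟨k, hk, w, hkw, hσk, hw⟩ := H.exists_kt
  have hkK : k ∈ kk φ q σ := (sup_le (f_le_kk (by decide)) (f_le_kk (by decide)) :
    f φ q σ ![1, 2] ⊔ f φ q σ ![-1, -2] ≤ kk φ q σ) hk
  refine
    { leX := f_le_kk (by decide)
      leP := le_sup_left
      leQ := le_sup_right
      leT := bot_le
      gen := le_sup_left
      hP := fun g hg x hx => H.hP hg hx
      hQ := fun g hg x hx => H.hQ hg hx
      hT := fun g hg x hx => by
        rw [Subgroup.mem_bot] at hg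
        rw [hg, one_mul, inv_one, mul_one]
        exact hx
      pgrp := ?_
      ne := ?_
      npg := hnp
      conjY := ⟨k, hkK, ?_⟩
      pair := ?_
      core := H.core }
  · refine IsPGroup.to_le (pair_p hK hφ (x := ![1, 2]) (y := ![1, 2]) (by decide) (by decide) (by decide)) ?_
    exact inf_le_left.trans le_sup_left
  · intro h
    obtain ⟨a, ha, ha1, hσ⟩ := H.short ![1, 2] (by decide)
    have h1 : a ∈ f φ q σ ![1, 2] := ⟨ha, hσ⟩
    rw [h, Subgroup.mem_bot] at h1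
    exact ha1 h1
  · rw [H.cj_f hkw hσk (by decide), hw]
    congr 1
  · intro g hg
    obtain ⟨u, hu, w', k', hk', hσk', v, hv, rfl⟩ := H.form (kk_le_Fx hg)
    have huK : u ∈ kk φ q σ := le_sup_left (α := Subgroup ↥(twistedD4 K q)) hu
    have hcjP : ∀ u ∈ pp φ q σ, Cfsg.Agent.H398.RG.cj u (f φ q σ ![1, 2]) = f φ q σ ![1, 2] := by
      intro u hu
      ext y
      rw [Cfsg.Agent.H398.RG.mem_cj]
      constructor
      · intro h1
        have h2 := H.hP hu h1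
        have e : u * (u⁻¹ * y * u) * u⁻¹ = y := by group
        rwa [e] at h2
      · intro h1
        have h2 := H.hP (inv_mem hu) h1
        rwa [inv_inv] at h2
    have hcj : Cfsg.Agent.H398.RG.cj (u * k' * v) (f φ q σ ![1, 2]) =
        Cfsg.Agent.H398.RG.cj u (f φ q σ (rep cs isCartan w' ![1, 2])) := by
      rw [Cfsg.Agent.H398.RG.cj_mul, hcjP v hv, Cfsg.Agent.H398.RG.cj_mul, H.cj_f hk' hσk' (by decide)]
    rw [hcj]
    by_cases hneg : rep cs isCartan w' ![1, 2] = ![-1, -2]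
    · right
      refine ⟨u⁻¹, inv_mem huK, hcjP _ (inv_mem hu), ?_⟩
      rw [← Cfsg.Agent.H398.RG.cj_mul, inv_mul_cancel, Cfsg.Agent.H398.RG.cj_one, hneg]
    · left
      have h1 : IsPGroup r ↥(X φ q ![1, 2] ⊔ X φ q (rep cs isCartan w' ![1, 2]) : Subgroup ↥(twistedD4 K q)) := by
        refine pair_p hK hφ (by decide) (root_mem ((isRoot_of_mem (by decide)).act w')) ?_
        intro e
        apply hneg
        rw [eq_neg_iff_add_eq_zero, add_comm, ← eq_neg_iff_add_eq_zero] at e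
        rw [e]
        decide
      have h2 : IsPGroup r ↥(f φ q σ ![1, 2] ⊔ f φ q σ (rep cs isCartan w' ![1, 2]) : Subgroup ↥(twistedD4 K q)) :=
        h1.to_le (sup_le_sup inf_le_left inf_le_left)
      refine isPGroup_of_cj (g := u⁻¹) h2 fun a ha => ?_
      have h3 : (f φ q σ ![1, 2] ⊔ Cfsg.Agent.H398.RG.cj u (f φ q σ (rep cs isCartan w' ![1, 2])) : Subgroup ↥(twistedD4 K q)) =
          Cfsg.Agent.H398.RG.cj u (f φ q σ ![1, 2] ⊔ f φ q σ (rep cs isCartan w' ![1, 2])) := by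
        rw [Cfsg.Agent.H398.RG.cj_sup, hcjP u hu]
      rw [h3, Cfsg.Agent.H398.RG.mem_cj] at ha
      rwa [inv_inv]

/-- `M = K` -/
theorem Hy.mk_eq : Cfsg.Agent.H398.RG.MK (kk φ q σ) (f φ q σ ![1, 2]) = kk φ q σ := by
  obtain ⟨M, hM⟩ : ∃ M, M = Cfsg.Agent.H398.RG.MK (kk φ q σ) (f φ q σ ![1, 2]) := ⟨_, rfl⟩
  have hn : ∀ k ∈ kk φ q σ, ∀ m ∈ M, k * m * k⁻¹ ∈ M := fun k hk m hm => by
    rw [hM] at hm ⊢
    exact Cfsg.Agent.H398.RG.conj_MK hk hm
  have h12 : f φ q σ ![1, 2] ≤ M := hM ▸ Cfsg.Agent.H398.RG.le_MK _ _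
  obtain ⟨kt, hkt', w, hktw, hσkt, hw⟩ := H.exists_kt
  have hkt : kt ∈ kk φ q σ := (sup_le (f_le_kk (by decide)) (f_le_kk (by decide)) :
    f φ q σ ![1, 2] ⊔ f φ q σ ![-1, -2] ≤ kk φ q σ) hkt'
  obtain ⟨ka, hka, w', hkaw, hσka, hw'⟩ := H.exists_ka
  have step : ∀ {w : CoxeterMatrix.G₂.Group} {k : ↥(twistedD4 K q)}, Rp cs (rgd' hK hφ r).nsys w k → σ k = k →
      k ∈ kk φ q σ → ∀ {z z' : Fin 2 → ℤ}, z ∈ rts → rep cs isCartan w z = z' → f φ q σ z ≤ M → f φ q σ z' ≤ M := by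
    intro w k hk hσk hkK z z' hz e h a ha
    rw [← e, ← H.cj_f hk hσk hz, Cfsg.Agent.H398.RG.mem_cj] at ha
    have h1 := hn k hkK _ (h ha)
    have e2 : k * (k⁻¹ * a * k) * k⁻¹ = a := by group
    rwa [e2] at h1
  have h11 : f φ q σ ![1, 1] ≤ M := step hkaw hσka hka (z := ![1, 2]) (by decide) (by rw [hw']; decide) h12
  have h0n : f φ q σ ![0, -1] ≤ M := step hktw hσkt hkt (z := ![1, 1]) (by decide) (by rw [hw]; decide) h11
  have h12n : f φ q σ ![-1, -2] ≤ M := step hktw hσkt hkt (z := ![1, 2]) (by decide) (by rw [hw]; decide) h12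
  have h11n : f φ q σ ![-1, -1] ≤ M := step hkaw hσka hka (z := ![-1, -2]) (by decide) (by rw [hw']; decide) h12n
  have h0 : f φ q σ ![0, 1] ≤ M := step hktw hσkt hkt (z := ![-1, -1]) (by decide) (by rw [hw]; decide) h11n
  rw [← hM]
  apply le_antisymm
  · rw [hM]
    exact Cfsg.Agent.H398.RG.MK_le_self (f_le_kk (by decide))
  · refine sup_le (H.pp_le fun z hz => ?_) (H.qq_le fun z hz => ?_)
    · simp only [List.mem_cons, List.not_mem_nil, or_false] at hz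
      rcases hz with rfl | rfl | rfl
      · exact h0
      · exact h11
      · exact h12
    · simp only [List.mem_cons, List.not_mem_nil, or_false] at hz
      rcases hz with rfl | rfl | rfl
      · exact h0n
      · exact h11n
      · exact h12n

/-- fixed points centralising `K` are in the torus -/
theorem Hy.mem_T {y : ↥(twistedD4 K q)} (hy : σ y = y) (hc : ∀ m ∈ kk φ q σ, y * m = m * y) : y ∈ T K q := by
  have R := rgd' hK hφ r
  obtain ⟨u, hu, w, k, hk, hσk, v, hv, e⟩ := H.form hy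
  have huK : u ∈ kk φ q σ := le_sup_left (α := Subgroup ↥(twistedD4 K q)) hu
  have hvK : v ∈ kk φ q σ := le_sup_left (α := Subgroup ↥(twistedD4 K q)) hv
  -- `w [1, 2] = [1, 2]`
  have hw12 : rep cs isCartan w ![1, 2] = ![1, 2] := by
    by_contra hne
    obtain ⟨a, ha, ha1, hσa⟩ := H.short ![1, 2] (by decide)
    apply ha1
    have haf : a ∈ f φ q σ ![1, 2] := ⟨ha, hσa⟩
    -- `k` maps `X` to `X`
    have hv' : v⁻¹ * a * v ∈ f φ q σ ![1, 2] := by
      have := H.hP (inv_mem hv) haf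
      rwa [inv_inv] at this
    have h1 : k * (v * (v⁻¹ * a * v) * v⁻¹) * k⁻¹ ∈ f φ q σ ![1, 2] := by
      have h2 : y * (v⁻¹ * a * v) * y⁻¹ = v⁻¹ * a * v := by
        rw [hc _ (f_le_kk (by decide) hv'), mul_inv_cancel_right]
      have h3 : k * (v * (v⁻¹ * a * v) * v⁻¹) * k⁻¹ = u⁻¹ * (y * (v⁻¹ * a * v) * y⁻¹) * u := by rw [e]; group
      rw [h3, h2]
      have := H.hP (inv_mem hu) hv'
      rwa [inv_inv] at this
    have e2 : v * (v⁻¹ * a * v) * v⁻¹ = a := by group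
    rw [e2] at h1
    have h4 := H.conj_f hk hσk (by decide) haf
    have h5 := X_inf hK hφ (root_mem ((isRoot_of_mem (z := ![1, 2]) (by decide)).act w)) (by decide) hne h4.1 h1.1
    exact conj_eq_one_iff.1 h5
  rcases w_cases' hw12 with rfl | rfl
  swap
  · exact (H.s0 k hk hσk).elim
  have hkT : k ∈ T K q := hk.mem_of_one
  have hyB : y ∈ RGD.B cs isCartan (T K q) (X φ q) := by
    rw [e]
    exact mul_mem (mul_mem (RGD.U_le_B (pp_le_U hu)) (RGD.T_le_B hkT)) (RGD.U_le_B (pp_le_U hv))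
  -- conjugate by the reflection
  obtain ⟨kt, hkt', w, hktw, hσkt, hw⟩ := H.exists_kt
  have hkt : kt ∈ kk φ q σ := (sup_le (f_le_kk (by decide)) (f_le_kk (by decide)) :
    f φ q σ ![1, 2] ⊔ f φ q σ ![-1, -2] ≤ kk φ q σ) hkt'
  have h6 : pp φ q σ ≤ (qq φ q σ).comap (MulAut.conj kt).toMonoidHom := by
    refine H.pp_le fun z hz a ha => ?_
    show kt * a * kt⁻¹ ∈ qq φ q σ
    have hz' : z ∈ rts := by
      have key : ∀ z ∈ [![0, 1], ![1, 1], (![1, 2] : Fin 2 → ℤ)], z ∈ rts := by decide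
      exact key z hz
    have h7 := H.conj_f hktw hσkt hz' ha
    refine RGD.le_Sup (X := fun x => X φ q x ⊓ Fx σ) (S := Neg cs isCartan) ⟨(isRoot_of_mem hz').act w, ?_⟩ h7
    simp only [List.mem_cons, List.not_mem_nil, or_false] at hz
    rcases hz with rfl | rfl | rfl <;> rw [hw] <;> intro k <;> fin_cases k <;> decide
  have hyBN : y ∈ BN cs isCartan (T K q) (X φ q) := by
    have e2 : y = kt * y * kt⁻¹ := by rw [← hc _ hkt]; group
    have e3 : kt * y * kt⁻¹ = (kt * u * kt⁻¹) * (kt * k * kt⁻¹) * (kt * v * kt⁻¹) := by rw [e]; group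
    rw [e2, e3]
    refine mul_mem (mul_mem (UN_le_BN (qq_le_UN (h6 hu))) (T_le_BN ?_)) (UN_le_BN (qq_le_UN (h6 hv)))
    exact (Subgroup.mem_normalizer_iff.1 hktw.mem_normalizer k).1 hkT
  have h7 : y ∈ RGD.B cs isCartan (T K q) (X φ q) ⊓ BN cs isCartan (T K q) (X φ q) := ⟨hyB, hyBN⟩
  rwa [B_inf_BN (rgd' hK hφ r)] at h7

end main2

end Cfsg.Agent.H244.TD.One
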