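import Cfsg.Agent.H244.TD.Hy
import Cfsg.Agent.H202.TD.One
import Cfsg.Agent.H442.TD.Diag3

/-!
# S3509, `³D₄(q)`, second class, `q ≡ 1 mod 3`: `MTwo` (helper244, helper202)
-/

set_option autoImplicit false
set_option linter.unusedSectionVars false

namespace Cfsg.Agent.H244.TD.One

open CoxeterSystem Cfsg.Agent.ChevalleyStructure.CoxeterGeom Cfsg.Agent.Tits.Roots Cfsg.Agent.Tits.Core
  Cfsg.Agent.Tits.Exchange Cfsg.Agent.Nodes.Reps Cfsg.Agent.Nodes.BNOf Cfsg.Agent.Nodes.StabComb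
  Cfsg.Agent.Nodes.Bruhat Cfsg.Agent.Nodes.OppDec Cfsg.Agent.Nodes.LeviDec Cfsg.Agent.Nodes.RGDTwGen
  Cfsg.Agent.Nodes.RGDChev Cfsg.Agent.Nodes.RGDFold Cfsg.Agent.Nodes.RGDFoldSL
open Cfsg.Agent.Nodes.Comb Cfsg.Agent.Nodes.Coroot Cfsg.Agent.Tits.RootComb
open Cfsg.Agent.KFacts.RgdOpp Cfsg.Agent.KFacts.RgdAut Cfsg.Agent.KFacts.RgdDiag Cfsg.Agent.KFacts.RgdRigid
  Cfsg.Agent.KFacts.RgdField Cfsg.Agent.KFacts.RgdTau Cfsg.Agent.KFacts.RgdNodes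
open Cfsg.Lie Cfsg.Agent.ChevalleyStructure Cfsg.Agent.ChevalleyStructure.Elts
open Cfsg.Agent.ChevalleyStructure.SL2Hom (up lo mem_closure_SL2)
open Cfsg.Agent.KFacts.TwDFour.Out
open Cfsg.Agent.Nodes.RGDTwD4 Cfsg.Agent.Nodes.RGDTwNode.D4
open Cfsg.Agent.CpAut.RgdFix Cfsg.Agent.CpAut.RgdConj Cfsg.Agent.CpAut.RgdTwStd Cfsg.Agent.CpAut.RgdTwD4
open Cfsg.Agent.H866.D4Wf.Frame
open Cfsg.Agent.H244.TD
open Cfsg.Agent.H911.TD (MTwo xo xo_apply)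
open Cfsg.Agent.H202.TD (Good3 noFix_long mem_WS n_conj_T n_conj' ch_inv)

variable {K : Type} [Field K] [Fintype K] {q : ℕ} (hK : Fintype.card K = q ^ 3)
  {φ : K →+* K} (hφ : ∀ x, φ x = x ^ q) {r : ℕ} [Fact r.Prime] [CharP K r]

theorem good_hS {d : KD φ 0} (hd : d ^ 3 = 1) (hd1 : d ≠ 1) : Good3 hK hφ (PhiD hφ hK 0 (hS d)) := by
  have hd0 : d ≠ 0 := by
    rintro rfl
    rw [zero_pow three_ne_zero] at hd
    exact zero_ne_one hd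
  have hdK : (d : K) ^ 3 = 1 := congrArg (fun a : KD φ 0 => (a : K)) hd
  refine ⟨PhiD_hS hφ hK 0 d hd0, ?_, ?_, ?_, ?_⟩
  · rw [chD_hS hφ hK 0 d hd0, ← pow_mul, mul_comm, pow_mul, hd, one_pow]
  · rw [chD_hS hφ hK 0 d hd0]
    intro h
    rw [pow_succ, h, one_mul] at hd
    exact hd1 hd
  · rw [ch01 hφ hK d hd0, inv_pow, hdK, inv_one]
  · rw [ch01 hφ hK d hd0, map_inv₀]
    congr 1
    exact Cfsg.Agent.Nodes.RGDFoldSL.mem_Fx.1 d.2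

/-- **the action on the root groups** -/
theorem hy (hq : IsPrimePow q) (h3 : q % 3 = 1) {d : KD φ 0} (hd : d ^ 3 = 1) (hd1 : d ≠ 1) {τ : K ≃+* K}
    (hτ : τ ^ 3 = 1) (hτ1 : τ ≠ 1) : Hy hK hφ r (xo hK hφ (hS d) τ) := by
  have hd0 : d ≠ 0 := by
    rintro rfl
    rw [zero_pow three_ne_zero] at hd
    exact zero_ne_one hd
  exact
    { px := fun z hz a ha => px hK hφ hd0 τ hz ha
      rp := fun w k hk => rp hK hφ hd0 τ hk
      long := fun z hz a ha h => noFix_long hq hτ hz _ (good_hS hK hφ hd hd1) a ha h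
      short := fun z hz => short hK hφ hq h3 hd hτ hτ1 hz
      s0 := fun k hk h => (mem_WS hq hτ (good_hS hK hφ hd hd1) hk h).2 rfl }

include hK in
theorem ch_of_comm {y : ↥(twistedD4 K q)} (hy : y ∈ T K q) {a : ↥(twistedD4 K q)} (ha : a ∈ X φ q ![0, 1])
    (ha1 : a ≠ 1) (h : y * a = a * y) : chD hφ hK 1 y = 1 := by
  rw [← sr1_eq] at ha
  obtain ⟨c, rfl⟩ := (mem_X hφ hK 1 a).1 ha
  have h1 := act_up hK hφ hy 1 c
  rw [h, mul_inv_cancel_right] at h1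
  have h2 := (coordD hφ hK 1).inj h1
  have hc : c ≠ 0 := by
    rintro rfl
    exact ha1 (coordD hφ hK 1).zero
  exact mul_right_cancel₀ hc (by rw [one_mul]; exact h2.symm)

include hK hφ in
theorem eo : EO q φ := by
  intro y hy a ha ha1 hya b hb hb1 hyb
  obtain ⟨r, hr⟩ := CharP.exists K
  have : Fact r.Prime := ⟨CharP.char_is_prime K r⟩
  have h1 := ch_of_comm hK hφ hy ha ha1 hya
  have hc0 := ch_ne_zero hK hφ hy 0
  have hP := PhiD_hS hφ hK 0 _ hc0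
  have hb' : (n hφ 0)⁻¹ * b * n hφ 0 ∈ X φ q ![0, 1] := by
    refine n_conj' hK 0 (by decide) ?_
    rw [rep0]
    exact hb
  have hy' : (n hφ 0)⁻¹ * y * n hφ 0 ∈ T K q := by
    rw [n_conj_T hK hφ hy]
    exact mul_mem (inv_mem hP) hy
  have h2 := ch_of_comm hK hφ hy' hb' (by
    intro h
    apply hb1
    have e : b = n hφ 0 * ((n hφ 0)⁻¹ * b * n hφ 0) * (n hφ 0)⁻¹ := by group
    rw [e, h]; group) (by
    have e : (n hφ 0)⁻¹ * y * n hφ 0 * ((n hφ 0)⁻¹ * b * n hφ 0) = (n hφ 0)⁻¹ * (y * b) * n hφ 0 := by group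
    have e' : (n hφ 0)⁻¹ * b * n hφ 0 * ((n hφ 0)⁻¹ * y * n hφ 0) = (n hφ 0)⁻¹ * (b * y) * n hφ 0 := by group
    rw [e, e', hyb])
  have h3 : chD hφ hK 0 y = 1 := by
    rw [n_conj_T hK hφ hy, ch_mul hK hφ (inv_mem hP) hy, h1, mul_one, ch_inv hK hφ hP] at h2
    have h4 : (chD hφ hK 1 (PhiD hφ hK 0 (hS (chD hφ hK 0 y))) : K)⁻¹ = 1 := congrArg (fun a : KD φ 1 => (a : K)) h2
    rw [ch01 hφ hK _ hc0, inv_inv] at h4
    exact Subtype.ext h4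
  have h5 := conj_eq_one_of_ch hK hφ hy (fun i => by
    have hi : i = 0 ∨ i = 1 := by fin_cases i <;> simp
    rcases hi with rfl | rfl
    · exact h3
    · exact h1)
  refine eq_one_of_center hK hφ fun g => ?_
  have h6 : y * g * y⁻¹ = g := by
    have := congrArg (fun α : MulAut ↥(twistedD4 K q) => α g) h5
    exact this
  exact mul_inv_eq_iff_eq_mul.1 h6

/-- **`MTwo`, `q ≡ 1 mod 3`.** -/
theorem mtwo_hS (hq : IsPrimePow q) (h3 : q % 3 = 1) {d : KD φ 0} (hd : d ^ 3 = 1) (hd1 : d ≠ 1) {τ : K ≃+* K}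
    (hτ : τ ^ 3 = 1) (hτ1 : τ ≠ 1) : MTwo (xo hK hφ (hS d) τ) (PhiD hφ hK 0) r := by
  have h4 : 4 ≤ q := by
    have := hq.one_lt
    omega
  obtain ⟨e, -, he⟩ := H27.Exc.exists_pow (r := r) three_pos hq hK
  exact mtwo_of_hy hK hφ (hS d) hq h4 he hτ hτ1 (hy hK hφ hq h3 hd hd1 hτ hτ1) (eo hK hφ)

/-- **`MTwo` for a conjugate, `q ≡ 1 mod 3`.** -/
theorem mtwo_one (hq : IsPrimePow q) (h3 : q % 3 = 1) {A : Matrix.SpecialLinearGroup (Fin 2) (KD φ 0)} (hA : A ^ 3 = 1)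
    (hA1 : A ≠ 1) {τ : K ≃+* K} (hτ : τ ^ 3 = 1) (hτ1 : τ ≠ 1) :
    ∃ B : Matrix.SpecialLinearGroup (Fin 2) (KD φ 0),
      MTwo (MulAut.conj (PhiD hφ hK 0 (B * A * B⁻¹)) * st q τ) (PhiD hφ hK 0) r := by
  have : Finite (KD φ 0) := Finite.of_injective _ Subtype.val_injective
  obtain ⟨B, d, hB, hd, hd1⟩ := Cfsg.Agent.H442.TD.Diag3.exists_conj_hS
    (by rw [card_KD0 hK hφ hq]; exact h3) hA hA1
  refine ⟨B, ?_⟩
  rw [hB]
  exact mtwo_hS hK hφ hq h3 hd hd1 hτ hτ1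

end Cfsg.Agent.H244.TD.One
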