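import Cfsg.Agent.H244.TD.One
import Cfsg.Agent.H911.TD.Psi
import Cfsg.Agent.H922.RG.MTwo
import Cfsg.Agent.H327.RG.CardThree

/-!
# S3509, `³D₄(q)`, second class, `q ≡ 1 mod 3`: `MTwo` from the action on the root groups (helper244)
-/

set_option autoImplicit false
set_option linter.unusedSectionVars false

namespace Cfsg.Agent.H244.TD.One

open CoxeterSystem Cfsg.Agent.ChevalleyStructure.CoxeterGeom Cfsg.Agent.Tits.Roots Cfsg.Agent.Tits.Core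
  Cfsg.Agent.Tits.Exchange Cfsg.Agent.Nodes.Reps Cfsg.Agent.Nodes.BNOf Cfsg.Agent.Nodes.StabComb
  Cfsg.Agent.Nodes.Bruhat Cfsg.Agent.Nodes.OppDec Cfsg.Agent.Nodes.LeviDec Cfsg.Agent.Nodes.RGDTwGen
  Cfsg.Agent.Nodes.RGDChev Cfsg.Agent.Nodes.RGDFold Cfsg.Agent.Nodes.RGDFoldSL
open Cfsg.Agent.Nodes.Comb Cfsg.Agent.Nodes.Coroot Cfsg.Agent.Tits.RootComb
open Cfsg.Agent.KFacts.RgdOpp Cfsg.Agent.KFacts.RgdAut Cfsg.Agent.KFacts.RgdDiag Cfsg.Agent.KFacts.RgdRigid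
  Cfsg.Agent.KFacts.RgdField Cfsg.Agent.KFacts.RgdTau Cfsg.Agent.KFacts.RgdNodes
open Cfsg.Lie Cfsg.Agent.ChevalleyStructure Cfsg.Agent.ChevalleyStructure.Elts
open Cfsg.Agent.ChevalleyStructure.SL2Hom (up lo mem_closure_SL2)
open Cfsg.Agent.KFacts.TwDFour.Out
open Cfsg.Agent.Nodes.RGDTwD4 Cfsg.Agent.Nodes.RGDTwNode.D4
open Cfsg.Agent.CpAut.RgdFix Cfsg.Agent.CpAut.RgdConj Cfsg.Agent.CpAut.RgdTwStd Cfsg.Agent.CpAut.RgdTwD4
open Cfsg.Agent.H866.D4Wf.Frame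
open Cfsg.Agent.H244.TD
open Cfsg.Agent.H911.TD (MTwo xo imgH L0_comm)
open Cfsg.Agent.H922.RG (mtwo_of_baseN imgH_range)

variable {K : Type} [Field K] [Fintype K] {q : ℕ} (hK : Fintype.card K = q ^ 3)
  {φ : K →+* K} (hφ : ∀ x, φ x = x ^ q) {r : ℕ} [Fact r.Prime] [CharP K r]

/-- elements of the torus centralising elements of two short root groups are trivial -/
def EO (q : ℕ) (φ : K →+* K) : Prop :=
  ∀ y ∈ T K q, ∀ a ∈ X φ q ![0, 1], a ≠ 1 → y * a = a * y → ∀ b ∈ X φ q ![1, 1], b ≠ 1 → y * b = b * y → y = 1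

theorem not_pgroup {G : Type*} [Group G] {m : ℕ} {X Y : Subgroup G} (hI : Cfsg.Agent.H884.NA.ImgH m X Y) (h4 : 4 ≤ m)
    (hne : X ≠ ⊥) {p : ℕ} [Fact p.Prime] [Finite G] : ¬ IsPGroup p ↥(X ⊔ Y : Subgroup G) := by
  intro hp
  have h1 := Cfsg.Agent.H911.TD.perfect_XY hI h4
  have hnil : Group.IsNilpotent ↥(X ⊔ Y : Subgroup G) := hp.isNilpotent
  have hs : Group.IsSolvable ↥(X ⊔ Y : Subgroup G) := inferInstance
  have h2 : (X ⊔ Y : Subgroup G) = ⊥ := by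
    by_contra hb
    have hnt : Nontrivial ↥(X ⊔ Y : Subgroup G) := (Subgroup.nontrivial_iff_ne_bot _).2 hb
    have h3 := Group.IsSolvable.commutator_lt_top_of_nontrivial ↥(X ⊔ Y : Subgroup G)
    apply h3.ne
    rw [← Subgroup.map_subtype_commutator] at h1
    have h5 := congrArg (Subgroup.comap (X ⊔ Y : Subgroup G).subtype) h1
    rw [Subgroup.comap_map_eq_self_of_injective (Subgroup.subtype_injective _)] at h5
    rw [h5]
    exact Subgroup.subgroupOf_self _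
  exact hne (eq_bot_iff.2 (h2 ▸ le_sup_left))

/-- **`MTwo` from the action on the root groups.** -/
theorem mtwo_of_hy (A : Matrix.SpecialLinearGroup (Fin 2) (KD φ 0)) {τ : K ≃+* K} (hq : IsPrimePow q) (h4 : 4 ≤ q)
    {e : ℕ} (hqe : q = r ^ e) (hτ : τ ^ 3 = 1) (hτ1 : τ ≠ 1) (H : Hy hK hφ r (xo hK hφ A τ)) (hE : EO q φ) :
    MTwo (xo hK hφ A τ) (PhiD hφ hK 0) r := by
  have hfin : Finite ↥(twistedD4 K q) := Finite.of_injective _ (Subgroup.subtype_injective _)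
  have hI : Cfsg.Agent.H884.NA.ImgH q (f φ q (xo hK hφ A τ) ![1, 2]) (f φ q (xo hK hφ A τ) ![-1, -2]) :=
    imgH hK hφ A hq hτ hτ1
  have hne : f φ q (xo hK hφ A τ) ![1, 2] ≠ ⊥ := by
    intro h
    obtain ⟨a, ha, ha1, hσ⟩ := H.short ![1, 2] (by decide)
    have h1 : a ∈ f φ q (xo hK hφ A τ) ![1, 2] := ⟨ha, hσ⟩
    rw [h, Subgroup.mem_bot] at h1
    exact ha1 h1
  have hB := H.base (not_pgroup hI h4 hne)
  have hc12 : Nat.card ↥(f φ q (xo hK hφ A τ) ![1, 2]) = q := Cfsg.Agent.H911.TD.card_Xf hK hφ A hq hτ hτ1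
  obtain ⟨kt, -, w, hktw, hσkt, hw⟩ := H.exists_kt
  obtain ⟨ka, -, w', hkaw, hσka, hw'⟩ := H.exists_ka
  have hcj : ∀ (g : ↥(twistedD4 K q)) (S : Subgroup ↥(twistedD4 K q)), Nat.card ↥(Cfsg.Agent.H398.RG.cj g S) = Nat.card ↥S := by
    intro g S
    exact Nat.card_congr (S.equivMapOfInjective _ (MulAut.conj g).injective).toEquiv.symm
  have hc11 : Nat.card ↥(f φ q (xo hK hφ A τ) ![1, 1]) = q := by
    have h := H.cj_f hkaw hσka (z := ![1, 2]) (by decide)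
    rw [hw', show (![1, 3 * 1 - 2] : Fin 2 → ℤ) = ![1, 1] by decide] at h
    exact (congrArg (fun S : Subgroup ↥(twistedD4 K q) => Nat.card ↥S) h).symm.trans ((hcj _ _).trans hc12)
  have hc0n : Nat.card ↥(f φ q (xo hK hφ A τ) ![0, -1]) = q := by
    have h := H.cj_f hktw hσkt (z := ![1, 1]) (by decide)
    rw [hw, show (![1 - 1, -1] : Fin 2 → ℤ) = ![0, -1] by decide] at h
    exact (congrArg (fun S : Subgroup ↥(twistedD4 K q) => Nat.card ↥S) h).symm.trans ((hcj _ _).trans hc11)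
  have hc01 : Nat.card ↥(f φ q (xo hK hφ A τ) ![0, 1]) = q := by
    have h := H.cj_f hkaw hσka (z := ![0, -1]) (by decide)
    rw [hw', show (![0, 3 * 0 - -1] : Fin 2 → ℤ) = ![0, 1] by decide] at h
    exact (congrArg (fun S : Subgroup ↥(twistedD4 K q) => Nat.card ↥S) h).symm.trans ((hcj _ _).trans hc0n)
  have : Finite CoxeterMatrix.G₂.Group := finiteW cs
  have hpp : IsPGroup r ↥(pp φ q (xo hK hφ A τ)) := (rgd' hK hφ r).isPGroup_Upos.to_le pp_le_U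
  have hfp : ∀ z ∈ rts, 0 ≤ z → f φ q (xo hK hφ A τ) z ≤ pp φ q (xo hK hφ A τ) := fun z hz h0 =>
    RGD.le_Sup (X := fun x => X φ q x ⊓ Fx (xo hK hφ A τ)) (S := RGD.Pos cs isCartan) ⟨isRoot_of_mem hz, h0⟩
  have hR : ∃ R : Subgroup ↥(twistedD4 K q), (∀ g ∈ R, xo hK hφ A τ g = g) ∧ Nat.card R = q ^ 3 := by
    obtain ⟨R, hR1, hR2⟩ := Cfsg.Agent.H327.RG.GFour.card_three hK hφ r hq (P01 := f φ q (xo hK hφ A τ) ![0, 1])
      (P11 := f φ q (xo hK hφ A τ) ![1, 1]) (P12 := f φ q (xo hK hφ A τ) ![1, 2]) inf_le_left inf_le_left inf_le_left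
      hc01 hc11 hc12 hpp (hfp _ (by decide) (by intro k; fin_cases k <;> decide))
      (hfp _ (by decide) (by intro k; fin_cases k <;> decide)) (hfp _ (by decide) (by intro k; fin_cases k <;> decide))
    exact ⟨R, fun g hg => pp_le_Fx (hR1 hg), hR2⟩
  refine mtwo_of_baseN (PhiD hφ hK 0) hB (fun k hk => kk_le_Fx hk) ?_ hqe h4 hI (fun _ => hR) ?_ ?_
  · intro y hy m hm
    rw [H.mk_eq] at hm ⊢
    exact H.norm_kk hy m hm
  · intro y hy hc
    rw [H.mk_eq] at hc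
    obtain ⟨a, ha, ha1, hσa⟩ := H.short ![0, 1] (by decide)
    obtain ⟨b, hb, hb1, hσb⟩ := H.short ![1, 1] (by decide)
    exact hE y (H.mem_T hy hc) a ha ha1 (hc a (f_le_kk (by decide) ⟨ha, hσa⟩)) b hb hb1 (hc b (f_le_kk (by decide) ⟨hb, hσb⟩))
  · intro u hu B
    exact (L0_comm hK hφ (Or.inl hu.1)).symm

end Cfsg.Agent.H244.TD.One
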